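import Cfsg.Agent.H628.Sq.TwFHC

/-!
# S4842, row `²F₄(q)`: abstract character theory (helper654)

* `exists_con`   : a linear functional not vanishing on a character does not vanish on a constituent;
* `mackey_ne`    : constituents of `χ|P` and `χ|Q` are linked by some `g`, for every factorisation `g = p w q`;
* `ro_lin`, `ro_one` : the irreducible characters of a rank one group over a linear character of the Borel subgroup,
  at an elliptic element.
-/

set_option autoImplicit false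
set_option linter.unusedSectionVars false

open scoped ComplexConjugate

namespace Cfsg.Agent.H654.OZ

open Cfsg Cfsg.Agent.Characters Cfsg.Agent.OddOrderCharacters.Clifford Cfsg.Agent.H628.Sq.Lin
open Cfsg.Agent.H628.Sq.NormLe Cfsg.Agent.LieRecognition.RankOneAbstract

universe u

/-- a linear functional that does not vanish on a character does not vanish on a constituent -/
theorem exists_con {P : Type*} [Group P] [Fintype P] {Θ : P → ℂ} (hΘ : IsCharacter P Θ) (Λ : (P → ℂ) →ₗ[ℂ] ℂ)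
    (h : Λ Θ ≠ 0) : ∃ τ : P → ℂ, IsIrrCharacter P τ ∧ classInner Θ τ ≠ 0 ∧ Λ τ ≠ 0 := by
  classical
  have : Finite (IrrCharacter P) := Core.finite_irr
  let _ : Fintype (IrrCharacter P) := Fintype.ofFinite _
  obtain ⟨m, hm⟩ := Core.isCharacter_iff.1 hΘ
  by_contra hcon
  push Not at hcon
  apply h
  rw [hm, map_sum]
  refine Finset.sum_eq_zero fun τ _ => ?_
  rw [map_nsmul]
  by_cases h0 : m τ = 0
  · rw [h0, zero_nsmul]
  · rw [hcon τ τ.2 ?_, nsmul_zero]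
    have e2 : classInner Θ (τ : P → ℂ) = m τ := by
      rw [hm]; exact Core.classInner_sum_nsmul_irr m τ
    rw [e2]; exact_mod_cast h0

/-- constituents of restrictions of constituents -/
theorem con_trans {G H : Type*} [Group G] [Group H] [Fintype G] [Fintype H] (j : H →* G) {Θ χ : G → ℂ}
    (hΘ : IsCharacter G Θ) (hχ : IsIrrCharacter G χ) (h : classInner Θ χ ≠ 0) {ψ : H → ℂ} (hψ : IsIrrCharacter H ψ)
    (h1 : classInner (χ ∘ j) ψ ≠ 0) : classInner (Θ ∘ j) ψ ≠ 0 := by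
  obtain ⟨a, ha⟩ := Core.classInner_isNat (Core.isCharacter_comp j (Core.isIrr_isCharacter hχ))
    (Core.isIrr_isCharacter hψ)
  obtain ⟨b, hb⟩ := Core.classInner_isNat (Core.isCharacter_comp j (isCharacter_sub_irr hΘ hχ h))
    (Core.isIrr_isCharacter hψ)
  have e : Θ ∘ j = χ ∘ j + (Θ - χ) ∘ j := by
    funext x
    simp
  rw [e, Core.classInner_add_left, ha, hb]
  rw [ha] at h1
  have h2 : a ≠ 0 := by exact_mod_cast h1
  exact_mod_cast (by omega : a + b ≠ 0)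

/-- the other order -/
theorem inner_symm_ne {G : Type*} [Group G] [Fintype G] {φ ψ : G → ℂ} (h : classInner φ ψ ≠ 0) :
    classInner ψ φ ≠ 0 := by
  intro h0
  apply h
  rw [← Core.classInner_conj_symm, h0, map_zero]

variable {G : Type u} [Group G]

/-- **Mackey**: constituents of the restrictions of an irreducible character -/
theorem mackey_ne [Fintype G] {P Q : Subgroup G} [Fintype P] [Fintype Q] {χ : G → ℂ} (hχ : IsIrrCharacter G χ)
    {ψ : P → ℂ} {φ : Q → ℂ} (hψ : IsIrrCharacter P ψ) (hφ : IsIrrCharacter Q φ)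
    (h1 : classInner (fun g : P => χ g) ψ ≠ 0) (h2 : classInner (fun g : Q => χ g) φ ≠ 0) :
    ∃ g : G, ∀ p ∈ P, ∀ q ∈ Q, ∀ w, g = p * w * q →
      ∑ x : P, extendByZero Q φ (w⁻¹ * x * w) * conj (ψ x) ≠ 0 := by
  have hI : IsCharacter G (indFun Q φ) := Cfsg.Agent.S0148.result Q _ (Core.isIrr_isCharacter hφ)
  have h3 : classInner (indFun Q φ) χ ≠ 0 := by
    rw [classInner_indFun Q _ _ (Core.isIrr_isClassFunction hχ)]
    exact inner_symm_ne h2
  have h4 : classInner (indFun Q φ ∘ P.subtype) ψ ≠ 0 := con_trans P.subtype hI hχ h3 hψ h1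
  have h5 : ∑ g : G, ∑ x : P, extendByZero Q φ (g⁻¹ * x * g) * conj (ψ x) ≠ 0 := by
    intro h0
    apply h4
    rw [classInner_apply]
    have : ∑ x : P, (indFun Q φ ∘ P.subtype) x * conj (ψ x) =
        (Nat.card Q : ℂ)⁻¹ * ∑ g : G, ∑ x : P, extendByZero Q φ (g⁻¹ * x * g) * conj (ψ x) := by
      rw [Finset.sum_comm, Finset.mul_sum]
      refine Finset.sum_congr rfl fun x _ => ?_
      show indFun Q φ x * conj (ψ x) = _
      rw [indFun_apply, mul_assoc, Finset.sum_mul]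
    rw [this, h0, mul_zero, mul_zero]
  obtain ⟨g, -, hg⟩ := Finset.exists_ne_zero_of_sum_ne_zero h5
  refine ⟨g, ?_⟩
  rintro p hp q hq w rfl
  have hcl := Core.isIrr_isClassFunction hφ
  have e : ∑ x : P, extendByZero Q φ (w⁻¹ * x * w) * conj (ψ x) =
      ∑ x : P, extendByZero Q φ ((p * w * q)⁻¹ * x * (p * w * q)) * conj (ψ x) := by
    symm
    refine Fintype.sum_equiv (MulAut.conj (⟨p, hp⟩ : P)⁻¹).toEquiv _ _ fun x => ?_
    have e1 : (p * w * q)⁻¹ * (x : G) * (p * w * q) = q⁻¹ * (w⁻¹ * (p⁻¹ * x * p) * w) * q := by group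
    have e2 : ((MulAut.conj (⟨p, hp⟩ : P)⁻¹).toEquiv x : G) = p⁻¹ * x * p := by
      show p⁻¹ * (x : G) * p⁻¹⁻¹ = _
      rw [inv_inv]
    have e3 : ψ ((MulAut.conj (⟨p, hp⟩ : P)⁻¹).toEquiv x) = ψ x :=
      Core.isIrr_isClassFunction hψ x _
    rw [e1, Cfsg.Agent.H53.HC.ext_conj hcl hq, e3, e2]
  rw [e]
  exact hg

/-- passing to a common subgroup -/
theorem inner_of_mackey [Finite G] {P Q : Subgroup G} [Fintype P] [Fintype Q] {ψ : P → ℂ} {φ : Q → ℂ}
    (hψ : IsCharacter P ψ) (hφ : IsCharacter Q φ) {w : G}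
    (h : ∑ x : P, extendByZero Q φ (w⁻¹ * x * w) * conj (ψ x) ≠ 0) {K : Type*} [Group K] [Fintype K] (j : K →* P)
    (j' : K →* Q) (hj : ∀ k, w⁻¹ * (j k : G) * w = j' k) : classInner (φ ∘ j') (ψ ∘ j) ≠ 0 := by
  classical
  let D : Subgroup P := Q.comap ((MulAut.conj w⁻¹).toMonoidHom.comp P.subtype)
  have hD : ∀ x : P, x ∈ D ↔ w⁻¹ * (x : G) * w ∈ Q := by
    intro x
    show w⁻¹ * (x : G) * w⁻¹⁻¹ ∈ Q ↔ _
    rw [inv_inv]
  have : Fintype D := Fintype.ofFinite _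
  let c : D →* Q :=
    { toFun := fun d => ⟨w⁻¹ * ((d : P) : G) * w, (hD _).1 d.2⟩
      map_one' := Subtype.ext (by simp)
      map_mul' := fun a b => Subtype.ext (by simp [mul_assoc]) }
  let i : K →* D :=
    { toFun := fun k => ⟨j k, (hD _).2 (by rw [hj]; exact (j' k).2)⟩
      map_one' := Subtype.ext (map_one j)
      map_mul' := fun a b => Subtype.ext (map_mul j a b) }
  have h1 := inner_le_comp i (Core.isCharacter_comp c hφ) (Core.isCharacter_comp D.subtype hψ)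
  have e1 : (φ ∘ c) ∘ i = φ ∘ j' := by
    funext k
    show φ (c (i k)) = φ (j' k)
    congr 1
    exact Subtype.ext (hj k)
  have e2 : (ψ ∘ D.subtype) ∘ i = ψ ∘ j := rfl
  rw [e1, e2] at h1
  intro h0
  rw [h0, norm_zero] at h1
  have h2 := norm_eq_zero.1 (le_antisymm h1 (norm_nonneg _))
  apply h
  rw [sum_eq_sum_subgroup D]
  · rw [classInner_apply] at h2
    have h3 := (mul_eq_zero.1 h2).resolve_left (inv_ne_zero card_ne_zero')
    rw [← h3]
    refine Finset.sum_congr rfl fun d _ => ?_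
    rw [ext_apply_mem Q φ _ ((hD d).1 d.2)]
    rfl
  · intro x hx
    rw [hD] at hx
    rw [ext_apply_not_mem Q φ _ hx, zero_mul]

/-! ### rank one groups -/

section ro

variable {L : Type u} [Group L] [Fintype L] {C : Subgroup L} [Fintype C] {n : L}

/-- `Ind μ` vanishes outside the conjugates of `C` -/
theorem ind_zero (f : C → ℂ) {t : L} (ht : ∀ x, x⁻¹ * t * x ∉ C) : indFun C f t = 0 := by
  rw [indFun_apply, Finset.sum_eq_zero fun x _ => ext_apply_not_mem C f _ (ht x), mul_zero]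

/-- an irreducible character over a linear character of `C` that is moved by `n` vanishes at the elliptic elements -/
theorem ro_lin (hb : ∀ g : L, g ∈ C ∨ ∃ a ∈ C, ∃ b ∈ C, g = a * n * b) {ψ : L → ℂ} (hψ : IsIrrCharacter L ψ)
    (μ : C →* ℂˣ) (h : classInner (fun c : C => (μ c : ℂ)) (fun c : C => ψ c) ≠ 0) {t : L}
    (ht : ∀ x, x⁻¹ * t * x ∉ C) (h0 : ψ t ≠ 0) (c : C) (hc : n⁻¹ * c * n ∈ C) : μ ⟨n⁻¹ * c * n, hc⟩ = μ c := by
  by_contra hne
  have h1 : IsIrrCharacter L (indFun C (fun t => (μ t : ℂ))) := by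
    refine Cfsg.Agent.CharactersDeep.MackeyLinear.isIrrCharacter_indFun C μ fun x hx => ?_
    rcases hb x with hx' | ⟨a, ha, b, hb', rfl⟩
    · exact absurd hx' hx
    · have e1 : (a * n * b)⁻¹ * ((⟨a, ha⟩ * c * ⟨a, ha⟩⁻¹ : C) : L) * (a * n * b) = b⁻¹ * (n⁻¹ * c * n) * b := by
        show (a * n * b)⁻¹ * (a * c * a⁻¹) * (a * n * b) = _
        group
      refine ⟨⟨a, ha⟩ * c * ⟨a, ha⟩⁻¹, ?_, ?_⟩
      · rw [e1]
        exact mul_mem (mul_mem (inv_mem hb') hc) hb'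
      · have e2 : ∀ hh : (a * n * b)⁻¹ * ((⟨a, ha⟩ * c * ⟨a, ha⟩⁻¹ : C) : L) * (a * n * b) ∈ C,
            (⟨_, hh⟩ : C) = ⟨b, hb'⟩⁻¹ * ⟨n⁻¹ * c * n, hc⟩ * ⟨b, hb'⟩ := fun hh => Subtype.ext e1
        rw [e2, map_mul, map_mul, map_inv, map_mul, map_mul, map_inv, mul_inv_cancel_comm, mul_comm (μ ⟨b, hb'⟩)⁻¹,
          inv_mul_cancel_right]
        exact fun h => hne h.symm
  apply h0
  have h2 : indFun C (fun t => (μ t : ℂ)) = ψ := by
    by_contra h3
    apply h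
    rw [← classInner_indFun C _ _ (Core.isIrr_isClassFunction hψ)]
    exact Core.classInner_irr_ne h1 hψ h3
  rw [← h2, ind_zero _ ht]

/-- the constituents of `1_C^L` -/
theorem ro_one (hb : ∀ g : L, g ∈ C ∨ ∃ a ∈ C, ∃ b ∈ C, g = a * n * b) {ψ : L → ℂ} (hψ : IsIrrCharacter L ψ)
    (h : ∑ c : C, ψ c ≠ 0) {t : L} (ht : ∀ x, x⁻¹ * t * x ∉ C) :
    ψ = 1 ∨ (ψ t = -1 ∧ ∑ c : C, ψ c = Nat.card C) := by
  classical
  by_cases h1 : ψ = 1
  · exact Or.inl h1
  right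
  set π := indFun C (fun c => (((1 : C →* ℂˣ) c : ℂˣ) : ℂ)) with hπ
  have hπc : IsCharacter L π := Cfsg.Agent.S0148.result C _ (Characters.Linear.isCharacter_hom _)
  -- `⟨π, φ⟩`
  have hin : ∀ φ : L → ℂ, IsCharacter L φ → classInner φ π = (Nat.card C : ℂ)⁻¹ * ∑ c : C, φ c := by
    intro φ hφ
    rw [← Core.classInner_conj_symm, classInner_indFun C _ _ (Core.isCharacter_isClassFunction hφ),
      Core.classInner_conj_symm, classInner_apply]
    congr 1
    exact Finset.sum_congr rfl fun c _ => by simp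
  have hone : classInner π 1 = 1 := by
    rw [← Core.classInner_conj_symm, hin 1 Core.isCharacter_one]
    have : ∑ c : C, (1 : L → ℂ) c = Nat.card C := by
      simp
    rw [this, inv_mul_cancel₀ card_ne_zero', map_one]
  have hψπ : classInner ψ π ≠ 0 := by
    rw [hin ψ (Core.isIrr_isCharacter hψ)]
    exact mul_ne_zero (inv_ne_zero card_ne_zero') h
  have c1 : IsCharacter L (π - 1) := isCharacter_sub_irr hπc Core.isIrr_one (by rw [hone]; exact one_ne_zero)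
  have h10 : classInner (1 : L → ℂ) ψ = 0 := Core.classInner_irr_ne Core.isIrr_one hψ (Ne.symm h1)
  have c2 : IsCharacter L (π - 1 - ψ) := isCharacter_sub_irr c1 hψ (by
    rw [Core.classInner_sub_left, h10, sub_zero]
    exact inner_symm_ne hψπ)
  -- the norm
  have hn : ‖classInner π π‖ ≤ 2 := by
    have key := norm_le C (Core.isCharacter_isClassFunction (Characters.Linear.isCharacter_hom (1 : C →* ℂˣ)))
      (ι := Bool) (fun b => if b then n else 1) (fun _ => 1) (fun x => by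
        rcases hb x with hx | ⟨a, ha, b, hb, h⟩
        · exact ⟨false, x, hx, 1, one_mem _, by simp⟩
        · exact ⟨true, a, ha, b, hb, by simpa using h⟩) (fun b => twist_le_card C 1 _)
    refine key.trans (le_of_eq ?_)
    rw [Fintype.sum_bool]
    norm_num
  set ρ' := π - 1 - ψ with hρ
  have e : π = 1 + ψ + ρ' := by rw [hρ]; ring
  obtain ⟨a, ha⟩ := Core.classInner_isNat c2 (Core.isCharacter_one (G := L))
  obtain ⟨b, hb2⟩ := Core.classInner_isNat c2 (Core.isIrr_isCharacter hψ)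
  obtain ⟨d, hd⟩ := Core.classInner_isNat c2 c2
  have h11 : classInner (1 : L → ℂ) 1 = 1 := Core.classInner_irr_self Core.isIrr_one
  have hpp : classInner ψ ψ = 1 := Core.classInner_irr_self hψ
  have h01 : classInner ψ (1 : L → ℂ) = 0 := Core.classInner_irr_ne hψ Core.isIrr_one h1
  have ha' : classInner (1 : L → ℂ) ρ' = a := by rw [← Core.classInner_conj_symm, ha, Complex.conj_natCast]
  have hb' : classInner ψ ρ' = b := by rw [← Core.classInner_conj_symm, hb2, Complex.conj_natCast]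
  have h2 : classInner π π = ((2 + 2 * a + 2 * b + d : ℕ) : ℂ) := by
    rw [e]
    simp only [Core.classInner_add_left, Core.classInner_add_right, h11, hpp, h01, h10, ha, hb2, hd, ha', hb']
    push_cast
    ring
  rw [h2, Complex.norm_natCast] at hn
  have h3 : 2 + 2 * a + 2 * b + d ≤ 2 := by exact_mod_cast hn
  have hd0 : d = 0 := by omega
  rw [hd0, Nat.cast_zero] at hd
  have h4 := Core.classInner_self_eq_zero hd
  rw [h4, add_zero] at e
  constructor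
  · have h5 : π t = 0 := ind_zero _ ht
    rw [e] at h5
    simp only [Pi.add_apply, Pi.one_apply] at h5
    linear_combination h5
  · have h5 := hin ψ (Core.isIrr_isCharacter hψ)
    rw [e, Core.classInner_add_right, h01, hpp, zero_add, eq_comm, inv_mul_eq_iff_eq_mul₀ card_ne_zero', mul_one] at h5
    exact h5

end ro

/-! ### a parabolic subgroup -/

/-- `P = L R`, `C` a Borel subgroup of `L`, `B = C R`, `W` the representatives of `P \\ G / B` -/
structure Fr (B P R L C : Subgroup G) (n : G) (W : G → Prop) : Prop where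
  LP : L ≤ P
  RP : R ≤ P
  CL : C ≤ L
  CB : C ≤ B
  RB : R ≤ B
  BP : B ≤ P
  form : ∀ g ∈ P, ∃ l ∈ L, ∃ r ∈ R, g = l * r
  formB : ∀ g ∈ B, ∃ l ∈ C, ∃ r ∈ R, g = l * r
  norm : ∀ g ∈ P, ∀ r ∈ R, g * r * g⁻¹ ∈ R
  nL : n ∈ L
  bru : ∀ g ∈ L, g ∈ C ∨ ∃ a ∈ C, ∃ b ∈ C, g = a * n * b
  cov : ∀ g : G, ∃ p ∈ P, ∃ b ∈ B, ∃ w, W w ∧ g = p * w * b ∧ ∀ c ∈ C, w⁻¹ * c * w ∈ B

/-- elliptic elements of `L`, free on `R` -/
structure El (R L C : Subgroup G) (t : G) : Prop where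
  mem : t ∈ L
  free : ∀ r ∈ R, t * r = r * t → r = 1
  ell : ∀ x ∈ L, x⁻¹ * t * x ∉ C

/-- truncation -/
theorem sum_free {χ : G → ℂ} (hχ : IsClassFunction G χ) {R : Subgroup G} [Fintype R] {t : G}
    (hn : ∀ r, r ∈ R ↔ t * r * t⁻¹ ∈ R) (hf : ∀ r ∈ R, t * r = r * t → r = 1) :
    ∑ r : R, χ (t * r) = Nat.card R * χ t := by
  classical
  have hinj : Function.Injective (fun u : R => (⟨t⁻¹ * (u : G)⁻¹ * t * u,
      R.mul_mem ((hn _).2 (by
        have : t * (t⁻¹ * (u : G)⁻¹ * t) * t⁻¹ = (u : G)⁻¹ := by group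
        rw [this]; exact R.inv_mem u.2)) u.2⟩ : R)) := by
    intro u w huw
    have h1 : t⁻¹ * (u : G)⁻¹ * t * u = t⁻¹ * (w : G)⁻¹ * t * w := congrArg Subtype.val huw
    have h2 : (w : G) * (u : G)⁻¹ ∈ R := R.mul_mem w.2 (R.inv_mem u.2)
    have h3 : t * ((w : G) * (u : G)⁻¹) = ((w : G) * (u : G)⁻¹) * t := by
      have h4 : (u : G)⁻¹ * t * u = (w : G)⁻¹ * t * w := by
        have := congrArg (fun z => t * z) h1
        simpa [mul_assoc] using this
      calc t * ((w : G) * (u : G)⁻¹) = w * ((w : G)⁻¹ * t * w) * (u : G)⁻¹ := by group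
        _ = w * ((u : G)⁻¹ * t * u) * (u : G)⁻¹ := by rw [h4]
        _ = ((w : G) * (u : G)⁻¹) * t := by group
    exact (Subtype.ext (mul_inv_eq_one.1 (hf _ h2 h3))).symm
  have hbij : Function.Bijective _ := Finite.injective_iff_bijective.1 hinj
  rw [← hbij.sum_comp (fun u : R => χ (t * u)), Finset.sum_congr rfl (g := fun _ => χ t), Finset.sum_const,
    Finset.card_univ, Nat.card_eq_fintype_card, nsmul_eq_mul]
  intro u _
  have : t * (t⁻¹ * (u : G)⁻¹ * t * u) = (u : G)⁻¹ * t * ((u : G)⁻¹)⁻¹ := by group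
  change χ (t * (t⁻¹ * (u : G)⁻¹ * t * u)) = _
  rw [this, hχ]

/-- no fixed vectors: the sums over the cosets vanish -/
theorem coset_zero {P : Type*} [Group P] {K : Type*} [Group K] [Fintype K] {ψ : P → ℂ} (hψ : IsIrrCharacter P ψ)
    (j : K →* P) (h : ∑ k : K, ψ (j k) = 0) (g : P) : ∑ k : K, ψ (g * j k) = 0 := by
  classical
  obtain ⟨n, ρ, hρ, rfl⟩ := hψ
  let ρj : Representation ℂ K (Fin n → ℂ) := ρ.comp j
  have hρ' : ∑ k : (⊤ : Subgroup K), ρj.character k = 0 := by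
    rw [← h]
    exact Fintype.sum_equiv Subgroup.topEquiv.toEquiv _ _ fun k => rfl
  have h1 := H710.Cuspidal.Z_eq_zero ρj ⊤ hρ'
  have h2 : ∑ k : K, ρ (j k) = 0 := by
    rw [← h1, H710.Cuspidal.Z]
    exact (Fintype.sum_equiv Subgroup.topEquiv.toEquiv _ _ fun k => rfl).symm
  have h3 : ∑ k : K, ρ.character (g * j k) = LinearMap.trace ℂ _ (ρ g * ∑ k : K, ρ (j k)) := by
    rw [Finset.mul_sum, map_sum]
    refine Finset.sum_congr rfl fun k _ => ?_
    rw [← map_mul]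
    rfl
  rw [h3, h2, mul_zero, map_zero]

/-- conjugation from a subgroup of `L` to `B` -/
def cj {C B : Subgroup G} (L : Subgroup G) {w : G} (hw : ∀ c ∈ C, w⁻¹ * c * w ∈ B) : C.subgroupOf L →* B where
  toFun c := ⟨w⁻¹ * ((c : L) : G) * w, hw _ (Subgroup.mem_subgroupOf.1 c.2)⟩
  map_one' := Subtype.ext (by simp)
  map_mul' a b := Subtype.ext (by simp [mul_assoc])

section fr

variable [Fintype G] {B P R L C : Subgroup G} {n : G} {W : G → Prop} [Fintype B] [Fintype P] [Fintype R] [Fintype L]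
  [Fintype (C.subgroupOf L)]

/-- the kernel -/
theorem Fr.ker (D : Fr B P R L C n W) {ψ : P → ℂ} (hψ : IsIrrCharacter P ψ)
    (h2 : ∑ r : R, ψ ⟨r, D.RP r.2⟩ ≠ 0) (g r : P) (hr : (r : G) ∈ R) : ψ (g * r) = ψ g := by
  classical
  have : Fintype (R.subgroupOf P) := Fintype.ofFinite _
  refine kernel_of_sum_ne_zero hψ (R.subgroupOf P) (fun g k hk => ?_) ?_ g (Subgroup.mem_subgroupOf.2 hr)
  · rw [Subgroup.mem_subgroupOf] at hk ⊢
    exact D.norm g g.2 _ hk
  · intro h0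
    apply h2
    rw [← h0]
    exact Fintype.sum_equiv (Subgroup.subgroupOfEquivOfLe D.RP).toEquiv.symm _ _ fun k => rfl

/-- the Levi part -/
theorem Fr.irr (D : Fr B P R L C n W) {ψ : P → ℂ} (hψ : IsIrrCharacter P ψ)
    (h2 : ∑ r : R, ψ ⟨r, D.RP r.2⟩ ≠ 0) : IsIrrCharacter L fun l : L => ψ ⟨l, D.LP l.2⟩ :=
  Cfsg.Agent.H628.Sq.TwFHC.irr_restrict D.LP D.RP D.form hψ (D.ker hψ h2)

/-- **the support** -/
theorem Fr.supp (D : Fr B P R L C n W) {χ : G → ℂ} (hχ : IsIrrCharacter G χ) (θ : B →* ℂˣ)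
    (hθ : classInner (fun b : B => χ b) (fun b => (θ b : ℂ)) ≠ 0) {ψ : P → ℂ} (hψ : IsIrrCharacter P ψ)
    (h1 : classInner (fun g : P => χ g) ψ ≠ 0) :
    ∃ w, W w ∧ ∃ hw : ∀ c ∈ C, w⁻¹ * c * w ∈ B, classInner
      (fun c : C.subgroupOf L => (((θ.comp (cj L hw)) c : ℂˣ) : ℂ))
      (fun c : C.subgroupOf L => ψ ⟨(c : L), D.LP (c : L).2⟩) ≠ 0 := by
  obtain ⟨g, hg⟩ := mackey_ne hχ hψ (Characters.Linear.isIrrCharacter_hom θ) h1 hθ
  obtain ⟨p, hp, b, hb, w, hW, hgw, hw⟩ := D.cov g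
  refine ⟨w, hW, hw, ?_⟩
  have h3 := hg p hp b hb w hgw
  exact inner_of_mackey (Core.isIrr_isCharacter hψ) (Characters.Linear.isCharacter_hom θ) h3
    ((Subgroup.inclusion D.LP).comp (C.subgroupOf L).subtype) (cj L hw) fun k => rfl

theorem Fr.bruL (D : Fr B P R L C n W) (g : L) : g ∈ C.subgroupOf L ∨ ∃ a ∈ C.subgroupOf L, ∃ b ∈ C.subgroupOf L,
    g = a * ⟨n, D.nL⟩ * b := by
  rcases D.bru g g.2 with h | ⟨a, ha, b, hb, h⟩
  · exact Or.inl (Subgroup.mem_subgroupOf.2 h)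
  · exact Or.inr ⟨⟨a, D.CL ha⟩, Subgroup.mem_subgroupOf.2 ha, ⟨b, D.CL hb⟩, Subgroup.mem_subgroupOf.2 hb, Subtype.ext h⟩

/-- **a linear character over which `χ` lies is fixed by a conjugate of `n` if `χ(t) ≠ 0`, `t` elliptic** -/
theorem Fr.lin_fix (D : Fr B P R L C n W) {t : G} (ht : El R L C t) {χ : G → ℂ} (hχ : IsIrrCharacter G χ)
    (θ : B →* ℂˣ) (hθ : classInner (fun b : B => χ b) (fun b => (θ b : ℂ)) ≠ 0) (h0 : χ t ≠ 0) :
    ∃ w, W w ∧ ∀ c ∈ C, ∀ (h1 : w⁻¹ * c * w ∈ B) (h2 : w⁻¹ * (n⁻¹ * c * n) * w ∈ B), n⁻¹ * c * n ∈ C →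
      θ ⟨_, h2⟩ = θ ⟨_, h1⟩ := by
  classical
  have htP : t ∈ P := D.LP ht.mem
  let Λ : (P → ℂ) →ₗ[ℂ] ℂ := ∑ r : R, LinearMap.proj (⟨t * r, mul_mem htP (D.RP r.2)⟩ : P)
  have hΛ : ∀ f, Λ f = ∑ r : R, f ⟨t * r, mul_mem htP (D.RP r.2)⟩ := fun f => by
    simp only [Λ, LinearMap.sum_apply, LinearMap.proj_apply]
  have hn : ∀ r, r ∈ R ↔ t * r * t⁻¹ ∈ R := fun r => ⟨D.norm t htP r, fun h => by
    have := D.norm t⁻¹ (inv_mem htP) _ h
    rwa [show t⁻¹ * (t * r * t⁻¹) * t⁻¹⁻¹ = r by group] at this⟩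
  obtain ⟨ψ, hψ, h1, h2⟩ := exists_con (P := P) (Core.isCharacter_comp P.subtype (Core.isIrr_isCharacter hχ)) Λ (by
    rw [hΛ]
    have := sum_free (Core.isIrr_isClassFunction hχ) hn ht.free
    show ∑ r : R, χ (t * r) ≠ 0
    rw [this]
    exact mul_ne_zero card_ne_zero' h0)
  rw [hΛ] at h2
  have h3 : ∑ r : R, ψ ⟨r, D.RP r.2⟩ ≠ 0 := by
    intro h3
    exact h2 (coset_zero hψ (Subgroup.inclusion D.RP) h3 ⟨t, htP⟩)
  have hker := D.ker hψ h3
  have ht0 : ψ ⟨t, htP⟩ ≠ 0 := by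
    intro h4
    apply h2
    refine Finset.sum_eq_zero fun r _ => ?_
    have := hker ⟨t, htP⟩ ⟨r, D.RP r.2⟩ r.2
    rw [h4] at this
    exact this
  obtain ⟨w, hW, hw, h5⟩ := D.supp hχ θ hθ hψ h1
  refine ⟨w, hW, fun c hc hc1 hc2 hc3 => ?_⟩
  exact ro_lin D.bruL (D.irr hψ h3) (θ.comp (cj L hw)) h5 (t := ⟨t, ht.mem⟩)
    (fun x hx => ht.ell x x.2 (Subgroup.mem_subgroupOf.1 hx)) ht0 ⟨⟨c, D.CL hc⟩, Subgroup.mem_subgroupOf.2 hc⟩
    (Subgroup.mem_subgroupOf.2 hc3)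

/-- **the value at an elliptic element of a character with `V^B ≠ 0`** -/
theorem Fr.val_one (D : Fr B P R L C n W) {t : G} (ht : El R L C t) {χ : G → ℂ} (hχ : IsIrrCharacter G χ)
    (hB : ∑ b : B, χ b ≠ 0) :
    χ t = 2 * ((Nat.card P : ℂ)⁻¹ * ∑ p : P, χ p) - (Nat.card B : ℂ)⁻¹ * ∑ b : B, χ b := by
  classical
  have htP : t ∈ P := D.LP ht.mem
  let Λ : (P → ℂ) →ₗ[ℂ] ℂ := (Nat.card R : ℂ)⁻¹ • ∑ r : R, LinearMap.proj (⟨t * r, mul_mem htP (D.RP r.2)⟩ : P) -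
    (2 * (Nat.card P : ℂ)⁻¹) • ∑ p : P, LinearMap.proj p +
    (Nat.card B : ℂ)⁻¹ • ∑ b : B, LinearMap.proj (⟨b, D.BP b.2⟩ : P)
  have hΛ : ∀ f, Λ f = (Nat.card R : ℂ)⁻¹ * ∑ r : R, f ⟨t * r, mul_mem htP (D.RP r.2)⟩ -
      (2 * (Nat.card P : ℂ)⁻¹) * ∑ p : P, f p + (Nat.card B : ℂ)⁻¹ * ∑ b : B, f ⟨b, D.BP b.2⟩ := fun f => by
    simp only [Λ, LinearMap.sum_apply, LinearMap.proj_apply, LinearMap.add_apply, LinearMap.sub_apply,
      LinearMap.smul_apply, smul_eq_mul]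
  have hn : ∀ r, r ∈ R ↔ t * r * t⁻¹ ∈ R := fun r => ⟨D.norm t htP r, fun h => by
    have := D.norm t⁻¹ (inv_mem htP) _ h
    rwa [show t⁻¹ * (t * r * t⁻¹) * t⁻¹⁻¹ = r by group] at this⟩
  have hR0 : (Nat.card R : ℂ) ≠ 0 := card_ne_zero'
  have hP0 : (Nat.card P : ℂ) ≠ 0 := card_ne_zero'
  have hB0 : (Nat.card B : ℂ) ≠ 0 := card_ne_zero'
  have hC0 : (Nat.card C : ℂ) ≠ 0 := card_ne_zero'
  -- the goal is `Λ χ = 0`
  have h0 : Λ (χ ∘ P.subtype) = 0 := by
    by_contra hcon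
    obtain ⟨ψ, hψ, h1, h2⟩ := exists_con (P := P) (Core.isCharacter_comp P.subtype (Core.isIrr_isCharacter hχ)) Λ hcon
    apply h2
    rw [hΛ]
    by_cases hone : ψ = 1
    · subst hone
      simp only [Pi.one_apply, Finset.sum_const, Finset.card_univ, nsmul_eq_mul, mul_one, ← Nat.card_eq_fintype_card]
      field_simp
      norm_num
    have hp : ∑ p : P, ψ p = 0 := by
      have h3 := Core.classInner_irr_ne hψ Core.isIrr_one hone
      rw [classInner_apply] at h3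
      have h4 := (mul_eq_zero.1 h3).resolve_left (inv_ne_zero card_ne_zero')
      rw [← h4]
      exact Finset.sum_congr rfl fun p _ => by simp
    rw [hp, mul_zero, sub_zero]
    by_cases h3 : ∑ r : R, ψ ⟨r, D.RP r.2⟩ = 0
    · have h4 : ∑ r : R, ψ ⟨t * r, mul_mem htP (D.RP r.2)⟩ = 0 :=
        coset_zero hψ (Subgroup.inclusion D.RP) h3 ⟨t, htP⟩
      have h5 : ∑ b : B, ψ ⟨b, D.BP b.2⟩ = 0 := by
        by_contra h5
        exact Cfsg.Agent.H628.Sq.TwFHC.sum_ne_zero_of_hom (Core.isIrr_isCharacter hψ) (Subgroup.inclusion D.BP)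
          (Subgroup.inclusion D.RB) h5 h3
      rw [h4, h5, mul_zero, mul_zero, add_zero]
    have hker := D.ker hψ h3
    have hB1 : classInner (fun b : B => χ b) (fun b => (((1 : B →* ℂˣ) b : ℂˣ) : ℂ)) ≠ 0 := by
      rw [classInner_apply]
      refine mul_ne_zero (inv_ne_zero hB0) ?_
      intro h4
      apply hB
      rw [← h4]
      exact Finset.sum_congr rfl fun b _ => by simp
    obtain ⟨w, -, hw, h5⟩ := D.supp hχ 1 hB1 hψ h1
    have h6 : ∑ c : C.subgroupOf L, (fun l : L => ψ ⟨l, D.LP l.2⟩) c ≠ 0 := by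
      intro h6
      apply inner_symm_ne h5
      rw [classInner_apply]
      have : ∑ c : C.subgroupOf L, ψ ⟨(c : L), D.LP (c : L).2⟩ *
          conj (((((1 : B →* ℂˣ).comp (cj L hw)) c : ℂˣ) : ℂ)) = ∑ c : C.subgroupOf L, ψ ⟨(c : L), D.LP (c : L).2⟩ :=
        Finset.sum_congr rfl fun c _ => by simp
      rw [this]
      have h7 : ∑ c : C.subgroupOf L, ψ ⟨(c : L), D.LP (c : L).2⟩ = 0 := h6
      rw [h7, mul_zero]
    rcases ro_one D.bruL (D.irr hψ h3) h6 (t := ⟨t, ht.mem⟩)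
      (fun x hx => ht.ell x x.2 (Subgroup.mem_subgroupOf.1 hx)) with h7 | ⟨h7, h8⟩
    · exfalso
      apply hone
      funext p
      obtain ⟨l, hl, r, hr, e⟩ := D.form p p.2
      have e1 : p = ⟨l, D.LP hl⟩ * ⟨r, D.RP hr⟩ := Subtype.ext e
      rw [e1, hker _ _ hr]
      exact congrFun h7 ⟨l, hl⟩
    · have h9 : ∑ r : R, ψ ⟨t * r, mul_mem htP (D.RP r.2)⟩ = -Nat.card R := by
        rw [Finset.sum_congr rfl (g := fun _ => (-1 : ℂ)), Finset.sum_const, Finset.card_univ, nsmul_eq_mul,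
          Nat.card_eq_fintype_card, mul_neg, mul_one]
        intro r _
        have := hker ⟨t, htP⟩ ⟨r, D.RP r.2⟩ r.2
        rw [show ψ ⟨t, htP⟩ = -1 from h7] at this
        exact this
      have : Fintype C := Fintype.ofFinite _
      have h10 : ∑ c : C, extendByZero P ψ c = Nat.card C := by
        have e1 : ((Nat.card (C.subgroupOf L) : ℕ) : ℂ) = Nat.card C := by
          rw [Nat.card_congr (Subgroup.subgroupOfEquivOfLe D.CL).toEquiv]
        rw [← e1, ← h8]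
        exact Fintype.sum_equiv (Subgroup.subgroupOfEquivOfLe D.CL).toEquiv.symm _ _ fun c =>
          ext_apply_mem P ψ c (D.LP (D.CL c.2))
      have h11 := Cfsg.Agent.H628.Sq.TwFHC.sum_U (U := B) (X := C) (R := R) (extendByZero P ψ) D.CB (fun g r hr => by
        by_cases hg : g ∈ P
        · rw [ext_apply_mem P ψ g hg, ext_apply_mem P ψ _ (mul_mem hg (D.RP hr))]
          exact hker ⟨g, hg⟩ ⟨r, D.RP hr⟩ hr
        · rw [ext_apply_not_mem P ψ g hg, ext_apply_not_mem P ψ _ fun h => hg ?_]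
          have := mul_mem h (inv_mem (D.RP hr))
          rwa [mul_inv_cancel_right] at this) D.formB
      rw [h10] at h11
      have h12 : ∑ b : B, ψ ⟨b, D.BP b.2⟩ = Nat.card B := by
        have h13 : ∑ b : B, extendByZero P ψ b = ∑ b : B, ψ ⟨b, D.BP b.2⟩ :=
          Finset.sum_congr rfl fun b _ => ext_apply_mem P ψ b (D.BP b.2)
        rw [h13, mul_comm] at h11
        exact (mul_left_cancel₀ hC0 h11).symm
      rw [h9, h12]
      field_simp
      norm_num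
  rw [hΛ] at h0
  have h1 := sum_free (Core.isIrr_isClassFunction hχ) hn ht.free
  have h2 : ∑ r : R, (χ ∘ P.subtype) ⟨t * r, mul_mem htP (D.RP r.2)⟩ = Nat.card R * χ t := h1
  have h3 : ∑ p : P, (χ ∘ P.subtype) p = ∑ p : P, χ p := rfl
  have h4 : ∑ b : B, (χ ∘ P.subtype) ⟨b, D.BP b.2⟩ = ∑ b : B, χ b := rfl
  rw [h2, h3, h4, inv_mul_cancel_left₀ hR0] at h0
  linear_combination h0

end fr

/-! ### the support lemma for two parabolic subgroups -/

/-- fixed vectors of both unipotent radicals give fixed vectors of the Borel subgroup -/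
theorem sum_U_ne [Fintype G] {P Q R R' X U : Subgroup G} [Fintype R] [Fintype R'] [Fintype U] (hRP : R ≤ P)
    (hRQ : R' ≤ Q) (hUQ : U ≤ Q) (hXU : X ≤ U)
    (hn : ∀ g ∈ P, ∀ r ∈ R, g * r * g⁻¹ ∈ R) (hn' : ∀ g ∈ Q, ∀ r ∈ R', g * r * g⁻¹ ∈ R')
    (hU : ∀ g ∈ U, ∃ l ∈ X, ∃ r ∈ R', g = l * r)
    (hc : ∀ g : G, ∃ p ∈ P, ∃ b ∈ Q, ∃ w, g = p * w * b ∧ ∀ x ∈ X, w * x * w⁻¹ ∈ R)
    {χ : G → ℂ} (hχ : IsIrrCharacter G χ) (h : ∑ r : R, χ r ≠ 0) (h' : ∑ r : R', χ r ≠ 0) : ∑ u : U, χ u ≠ 0 := by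
  classical
  have : Fintype P := Fintype.ofFinite _
  have : Fintype Q := Fintype.ofFinite _
  have : Fintype X := Fintype.ofFinite _
  have hch := fun (K : Subgroup G) => Core.isCharacter_comp K.subtype (Core.isIrr_isCharacter hχ)
  have ker : ∀ (P R : Subgroup G) [Fintype P] [Fintype R] (hRP : R ≤ P) (hn : ∀ g ∈ P, ∀ r ∈ R, g * r * g⁻¹ ∈ R)
      (ψ : P → ℂ) (hψ : IsIrrCharacter P ψ) (h2 : ∑ r : R, ψ ⟨r, hRP r.2⟩ ≠ 0) (g r : P) (hr : (r : G) ∈ R),
      ψ (g * r) = ψ g := by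
    intro P R _ _ hRP hn ψ hψ h2 g r hr
    have : Fintype (R.subgroupOf P) := Fintype.ofFinite _
    refine kernel_of_sum_ne_zero hψ (R.subgroupOf P) (fun g k hk => ?_) ?_ g (Subgroup.mem_subgroupOf.2 hr)
    · rw [Subgroup.mem_subgroupOf] at hk ⊢
      exact hn g g.2 _ hk
    · intro h0
      apply h2
      rw [← h0]
      exact Fintype.sum_equiv (Subgroup.subgroupOfEquivOfLe hRP).toEquiv.symm _ _ fun k => rfl
  obtain ⟨ψ, hψ, h1, h2⟩ := irr_of_sum_ne_zero (hch P) (fun r : R => (⟨r, hRP r.2⟩ : P)) h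
  obtain ⟨φ, hφ, h3, h4⟩ := irr_of_sum_ne_zero (hch Q) (fun r : R' => (⟨r, hRQ r.2⟩ : Q)) h'
  have kψ := ker P R hRP hn ψ hψ h2
  have kφ := ker Q R' hRQ hn' φ hφ h4
  obtain ⟨g, hg⟩ := mackey_ne hχ hψ hφ h1 h3
  obtain ⟨p, hp, b, hb, w, hgw, hw⟩ := hc g
  have h5 := hg p hp b hb w hgw
  let j : X →* P :=
    { toFun := fun x => ⟨w * x * w⁻¹, hRP (hw x x.2)⟩
      map_one' := Subtype.ext (by simp)
      map_mul' := fun a b => Subtype.ext (by simp [mul_assoc]) }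
  have h6 := inner_of_mackey (Core.isIrr_isCharacter hψ) (Core.isIrr_isCharacter hφ) h5 j
    (Subgroup.inclusion (hXU.trans hUQ)) (fun x => by
      show w⁻¹ * (w * (x : G) * w⁻¹) * w = x
      group)
  have h7 : ∑ x : X, extendByZero Q φ x ≠ 0 := by
    intro h7
    apply h6
    rw [classInner_apply]
    have h8 : ∀ x : X, (ψ ∘ j) x = ψ 1 := by
      intro x
      have := kψ 1 (j x) (hw x x.2)
      rw [one_mul] at this
      exact this
    have h9 : ∑ x : X, (φ ∘ (Subgroup.inclusion (hXU.trans hUQ))) x * conj ((ψ ∘ j) x) =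
        (∑ x : X, extendByZero Q φ x) * conj (ψ 1) := by
      rw [Finset.sum_mul]
      refine Finset.sum_congr rfl fun x _ => ?_
      rw [h8 x, ext_apply_mem Q φ x (hUQ (hXU x.2))]
      rfl
    rw [h9, h7, zero_mul, mul_zero]
  have h10 := Cfsg.Agent.H628.Sq.TwFHC.sum_U (U := U) (X := X) (R := R') (extendByZero Q φ) hXU (fun g r hr => by
    by_cases hg : g ∈ Q
    · rw [ext_apply_mem Q φ g hg, ext_apply_mem Q φ _ (mul_mem hg (hRQ hr))]
      exact kφ ⟨g, hg⟩ ⟨r, hRQ hr⟩ hr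
    · rw [ext_apply_not_mem Q φ g hg, ext_apply_not_mem Q φ _ fun h => hg ?_]
      have := mul_mem h (inv_mem (hRQ hr))
      rwa [mul_inv_cancel_right] at this) hU
  intro h11
  have h12 : ∑ u : U, φ ⟨u, hUQ u.2⟩ = 0 :=
    Cfsg.Agent.H628.Sq.TwFHC.sum_eq_zero_of_constituent (hch Q) hφ h3 (Subgroup.inclusion hUQ) h11
  have h13 : ∑ u : U, extendByZero Q φ u = 0 := by
    rw [← h12]
    exact Finset.sum_congr rfl fun u _ => ext_apply_mem Q φ u (hUQ u.2)
  rw [h13, mul_zero] at h10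
  exact h7 ((mul_eq_zero.1 h10).resolve_left card_ne_zero')

end Cfsg.Agent.H654.OZ
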