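import Cfsg.Agent.H654.OZ.Geo
import Cfsg.Agent.H628.Sq.TwFTorus

/-!
# S4842, row `²F₄(q)`: words, double cosets, orders (helper654)

* `alt_maps` : the action of the alternating words in `n1`, `n2`;
* `card_BB`, `card_Jd` : orders;
* `r2` : the rank two data;
* `sum_cells` : sums over the double cosets of the Borel subgroup;
* `poinc` : the Poincaré polynomial.
-/

set_option autoImplicit false
set_option linter.unusedSectionVars false

namespace Cfsg.Agent.H654.OZ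

open Cfsg Cfsg.Agent.SplitTwo Cfsg.Agent.SplitTwo.ZS Cfsg.Agent.TitsThree.RankTwoZ Cfsg.Agent.SplitTwo.RootSysZ
open Cfsg.Agent.KFacts.TwF4 Cfsg.Agent.KFacts.TwF4.Arc Cfsg.Agent.KFacts.TwF4.SylU Cfsg.Agent.KFacts.TwF4.TorEx
open Cfsg.Agent.KFacts.TwF4.Full Cfsg.Agent.KFacts.TwF4.Irr
open Cfsg.Agent.H42.Deg.F4 Cfsg.Agent.H628.Sq.TwFNorm Cfsg.Agent.H628.Sq.TwFHC
open Cfsg.Agent.H42.Deg (card_of_proj)
open Cfsg.Agent.H42.Deg.F4B (PB NB NB_form PB_form J_le_PB T_le_PB L4_le_PB NB_le_PB rot4_T)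

universe u

variable {F : Type*} [Field F] {σ : F →+* F} {G : Type u} [Group G] (S : Full σ G)

/-! ### the words -/

theorem alt_maps (l : ℕ) : (Ro S (alt S.n1 S.n2 (2 * l)) l ∧ Re S (alt S.n1 S.n2 (2 * l + 1)) (5 + l)) ∧
    (Ro S (alt S.n2 S.n1 (2 * l)) (-l) ∧ Re S (alt S.n2 S.n1 (2 * l + 1)) (4 - l)) := by
  have h1 := re1 S
  have h2 := re2 S
  induction l with
  | zero =>
    refine ⟨⟨?_, ?_⟩, ?_, ?_⟩
    · exact Ro.zero_iff.2 (one_mem _)
    · show Re S (S.n1 * 1) _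
      rw [mul_one]
      exact h1
    · exact Ro.zero_iff.2 (one_mem _)
    · show Re S (S.n2 * 1) _
      rw [mul_one]
      exact h2
  | succ l ih =>
    obtain ⟨⟨a, b⟩, c, d⟩ := ih
    have e1 : Ro S (alt S.n1 S.n2 (2 * l + 2)) (l + 1 : ℕ) := (h1.mul d).cong (by push_cast; ring)
    have e2 : Ro S (alt S.n2 S.n1 (2 * l + 2)) (-(l + 1 : ℕ)) := (h2.mul b).cong (by push_cast; ring)
    refine ⟨⟨e1, ?_⟩, e2, ?_⟩
    · exact (h1.mulRo e2).cong (by push_cast; ring)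
    · exact (h2.mulRo e1).cong (by push_cast; ring)

theorem lt1 {l : ℕ} (hl : l < 8) {x : G} (hx : x ∈ S.XZ 1) :
    (alt S.n2 S.n1 l)⁻¹ * x * alt S.n2 S.n1 l ∈ J S.XZ 1 8 := by
  obtain ⟨j, rfl | rfl⟩ := Nat.even_or_odd' l
  · exact (alt_maps S j).2.1.arc (by omega) (by omega) (mem_J hx le_rfl le_rfl)
  · exact (alt_maps S j).2.2.arc (by omega) (by omega) (mem_J hx le_rfl le_rfl)

theorem lt2 {l : ℕ} (hl : l < 8) {x : G} (hx : x ∈ S.XZ 8) :
    (alt S.n1 S.n2 l)⁻¹ * x * alt S.n1 S.n2 l ∈ J S.XZ 1 8 := by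
  obtain ⟨j, rfl | rfl⟩ := Nat.even_or_odd' l
  · exact (alt_maps S j).1.1.arc (by omega) (by omega) (mem_J hx le_rfl le_rfl)
  · exact (alt_maps S j).1.2.arc (by omega) (by omega) (mem_J hx le_rfl le_rfl)

/-- the sixteen words -/
def wd (i : Bool × Fin 8) : G := if i.1 then alt S.n2 S.n1 (i.2 : ℕ) else alt S.n1 S.n2 ((i.2 : ℕ) + 1)

/-- the arcs of the double cosets -/
def Jd (i : Bool × Fin 8) : Subgroup G := if i.1 then J S.XZ (9 - ((i.2 : ℕ) : ℤ)) 8 else J S.XZ 1 (((i.2 : ℕ) : ℤ) + 1)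

theorem exists_wd {w : G} (h : Dih S w) : ∃ i, (wd S i)⁻¹ * w ∈ S.T := by
  obtain ⟨c, h | h⟩ := h
  · obtain ⟨c, h1, h2, h⟩ := h.red (-3)
    by_cases h3 : c ≤ 0
    · refine ⟨(true, ⟨2 * (-c).toNat, by omega⟩), ?_⟩
      have h4 := (alt_maps S (-c).toNat).2.1
      have e : ((-c).toNat : ℤ) = -c := by omega
      rw [e, neg_neg] at h4
      rw [← Ro.zero_iff]
      exact (h4.inv.mul h).cong (by push_cast; ring)
    · refine ⟨(false, ⟨2 * c.toNat - 1, by omega⟩), ?_⟩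
      have h4 := (alt_maps S c.toNat).1.1
      have e : (c.toNat : ℤ) = c := by omega
      rw [e] at h4
      rw [← Ro.zero_iff]
      have h5 : wd S (false, ⟨2 * c.toNat - 1, by omega⟩) = alt S.n1 S.n2 (2 * c.toNat) := by
        show alt S.n1 S.n2 (2 * c.toNat - 1 + 1) = _
        congr 1
        omega
      rw [h5]
      exact (h4.inv.mul h).cong (by push_cast; ring)
  · obtain ⟨c, h1, h2, h⟩ := h.red 1
    by_cases h3 : c ≤ 4
    · refine ⟨(true, ⟨2 * (4 - c).toNat + 1, by omega⟩), ?_⟩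
      have h4 := (alt_maps S (4 - c).toNat).2.2
      have e : ((4 - c).toNat : ℤ) = 4 - c := by omega
      rw [e] at h4
      rw [← Ro.zero_iff]
      exact (h4.inv.mul h).cong (by push_cast; ring)
    · refine ⟨(false, ⟨2 * (c - 5).toNat, by omega⟩), ?_⟩
      have h4 := (alt_maps S (c - 5).toNat).1.2
      have e : ((c - 5).toNat : ℤ) = c - 5 := by omega
      rw [e] at h4
      rw [← Ro.zero_iff]
      exact (h4.inv.mul h).cong (by push_cast; ring)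

theorem wd_split (i : Bool × Fin 8) {u : G} (hu : u ∈ J S.XZ 1 8) :
    ∃ p ∈ Jd S i, ∃ q, (wd S i)⁻¹ * q * wd S i ∈ J S.XZ 1 8 ∧ u = p * q := by
  have Z := S.zsys8
  obtain ⟨b, l, hl⟩ := i
  cases b
  · obtain ⟨p, hp, q, hq, e⟩ := Z.split (a := 1) (b := 8) (c := (l : ℤ) + 2) (by omega) (by omega) (by omega) hu
    refine ⟨p, ?_, q, ?_, e⟩
    · show p ∈ J S.XZ 1 ((l : ℤ) + 1)
      exact J_mono le_rfl (by omega) hp
    · show (alt S.n1 S.n2 (l + 1))⁻¹ * q * alt S.n1 S.n2 (l + 1) ∈ J S.XZ 1 8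
      obtain ⟨j, hj | hj⟩ := Nat.even_or_odd' (l + 1)
      · rw [hj]
        exact (alt_maps S j).1.1.arc (by omega) (by omega) hq
      · rw [hj]
        exact (alt_maps S j).1.2.arc (by omega) (by omega) hq
  · obtain ⟨q, hq, p, hp, e⟩ := Z.split' (a := 1) (b := 8) (c := 9 - (l : ℤ)) (by omega) (by omega) (by omega) hu
    refine ⟨q, hq, p, ?_, e⟩
    show (alt S.n2 S.n1 l)⁻¹ * p * alt S.n2 S.n1 l ∈ J S.XZ 1 8
    obtain ⟨j, rfl | rfl⟩ := Nat.even_or_odd' l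
    · exact (alt_maps S j).2.1.arc (by omega) (by omega) hp
    · exact (alt_maps S j).2.2.arc (by omega) (by omega) hp

variable [Finite F]

theorem BB_form' {b : G} (hb : b ∈ BB S) : ∃ u ∈ J S.XZ 1 8, ∃ t ∈ S.T, b = u * t := by
  obtain ⟨t, ht, u, hu, e⟩ := BB_form (inv_mem hb)
  exact ⟨u⁻¹, inv_mem hu, t⁻¹, inv_mem ht, by rw [← mul_inv_rev, ← e, inv_inv]⟩

theorem dih_wd (i : Bool × Fin 8) : Dih S (wd S i) := by
  obtain ⟨b, l, hl⟩ := i
  cases b
  · obtain ⟨j, hj | hj⟩ := Nat.even_or_odd' (l + 1)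
    · exact ⟨_, Or.inl (by
        show Ro S (alt S.n1 S.n2 (l + 1)) j
        rw [hj]
        exact (alt_maps S j).1.1)⟩
    · exact ⟨_, Or.inr (by
        show Re S (alt S.n1 S.n2 (l + 1)) (5 + j)
        rw [hj]
        exact (alt_maps S j).1.2)⟩
  · obtain ⟨j, rfl | rfl⟩ := Nat.even_or_odd' l
    · exact ⟨_, Or.inl (alt_maps S j).2.1⟩
    · exact ⟨_, Or.inr (alt_maps S j).2.2⟩

/-- **the double cosets** -/
theorem cell (g : G) : ∃ i, ∃ u ∈ Jd S i, ∃ b ∈ BB S, g = u * wd S i * b := by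
  obtain ⟨b, hb, w, hw, b', hb', rfl⟩ := bruhat' (S := S) g
  obtain ⟨i, hi⟩ := exists_wd S hw
  obtain ⟨u, hu, t, ht, rfl⟩ := BB_form' S hb
  obtain ⟨p, hp, q, hq, rfl⟩ := wd_split S i hu
  refine ⟨i, p, hp, ((wd S i)⁻¹ * q * wd S i) * ((wd S i)⁻¹ * t * wd S i) * ((wd S i)⁻¹ * w) * b',
    mul_mem (mul_mem (mul_mem (J_le_BB S hq) (T_le_BB S ((dih_wd S i).tor ht))) (T_le_BB S hi)) hb', by group⟩

theorem Jd_le (i : Bool × Fin 8) : Jd S i ≤ BB S := by
  obtain ⟨b, l, hl⟩ := i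
  cases b
  · exact (J_mono le_rfl (by omega)).trans (J_le_BB S)
  · exact (J_mono (by omega) le_rfl).trans (J_le_BB S)

/-! ### orders -/

omit [Finite F] in
theorem card_odd (a : ℤ) : Nat.card (S.XZ (2 * a + 1)) = Nat.card F := by
  symm
  refine Nat.card_eq_of_bijective (fun t => (⟨S.o (a : ZMod 8) t, S.o_mem a t⟩ : S.XZ (2 * a + 1))) ⟨?_, ?_⟩
  · intro s t h
    exact S.injO _ (congrArg Subtype.val h)
  · rintro ⟨g, hg⟩
    obtain ⟨t, rfl⟩ := (S.mem_XZ_odd a g).1 hg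
    exact ⟨t, rfl⟩

omit [Finite F] in
theorem card_even (a : ℤ) : Nat.card (S.XZ (2 * a)) = Nat.card F ^ 2 := by
  rw [pow_two, ← Nat.card_prod]
  symm
  refine Nat.card_eq_of_bijective (fun t : F × F => (⟨S.e (a : ZMod 8) t.1 t.2, S.e_mem a t.1 t.2⟩ : S.XZ (2 * a)))
    ⟨?_, ?_⟩
  · rintro ⟨s, s'⟩ ⟨t, t'⟩ h
    obtain ⟨h1, h2⟩ := S.injE _ _ _ _ _ (congrArg Subtype.val h)
    exact Prod.ext h1 h2
  · rintro ⟨g, hg⟩
    obtain ⟨t, u, rfl⟩ := (S.mem_XZ_even a g).1 hg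
    exact ⟨(t, u), rfl⟩

omit [Finite F] in
theorem card_left {a b : ℤ} (h : a ≤ b) (h' : b < a + 8) :
    Nat.card (J S.XZ a b) = Nat.card (S.XZ a) * Nat.card (J S.XZ (a + 1) b) := by
  have Z := S.zsys8
  exact card_of_proj (X_le_J le_rfl h) (J_mono (by omega) le_rfl)
    (fun x hx hx' => Z.inter a x hx (J_mono le_rfl (by omega) hx')) fun x hx => Z.split_ll h h' hx

omit [Finite F] in
theorem card_J18 : Nat.card (J S.XZ 1 8) = Nat.card F ^ 12 ∧ Nat.card (J S.XZ 2 8) = Nat.card F ^ 11 ∧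
    Nat.card (J S.XZ 1 7) = Nat.card F ^ 10 ∧ ∀ i, Nat.card (Jd S i) =
      Nat.card F ^ (if i.1 then (![0, 2, 3, 5, 6, 8, 9, 11] : Fin 8 → ℕ) i.2
        else (![1, 3, 4, 6, 7, 9, 10, 12] : Fin 8 → ℕ) i.2) := by
  set q := Nat.card F with hq
  have o1 : Nat.card (S.XZ 1) = q := card_odd S 0
  have o3 : Nat.card (S.XZ 3) = q := card_odd S 1
  have o5 : Nat.card (S.XZ 5) = q := card_odd S 2
  have o7 : Nat.card (S.XZ 7) = q := card_odd S 3
  have e2 : Nat.card (S.XZ 2) = q ^ 2 := card_even S 1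
  have e4 : Nat.card (S.XZ 4) = q ^ 2 := card_even S 2
  have e6 : Nat.card (S.XZ 6) = q ^ 2 := card_even S 3
  have e8 : Nat.card (S.XZ 8) = q ^ 2 := card_even S 4
  have em : ∀ a b : ℤ, b < a → Nat.card (J S.XZ a b) = 1 := fun a b h => by
    rw [J_empty h]
    exact Nat.card_unique
  have cl := fun (a b : ℤ) (h : a ≤ b) (h' : b < a + 8) => card_left S h h'
  -- all arcs `J a b`
  have key : ∀ b : ℤ, 1 ≤ b → b ≤ 8 → ∀ n : ℕ, (n : ℤ) ≤ b → ∀ a : ℤ, a = b + 1 - n →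
      Nat.card (J S.XZ a b) = ∏ k ∈ Finset.range n, (if (b - k) % 2 = 0 then q ^ 2 else q) := by
    intro b hb1 hb8 n
    induction n with
    | zero =>
      intro _ a ha
      rw [em a b (by omega)]
      rfl
    | succ n ih =>
      intro hn a ha
      rw [cl a b (by omega) (by omega), ih (by omega) (a + 1) (by omega), Finset.prod_range_succ, mul_comm]
      congr 1
      have e : b - n = a := by omega
      rw [e]
      split_ifs with h
      · obtain ⟨c, rfl⟩ : ∃ c, a = 2 * c := ⟨a / 2, by omega⟩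
        exact card_even S c
      · obtain ⟨c, rfl⟩ : ∃ c, a = 2 * c + 1 := ⟨a / 2, by omega⟩
        exact card_odd S c
  refine ⟨?_, ?_, ?_, ?_⟩
  · rw [key 8 (by norm_num) (by norm_num) 8 (by norm_num) 1 (by norm_num)]
    simp [Finset.prod_range_succ]
    ring
  · rw [key 8 (by norm_num) (by norm_num) 7 (by norm_num) 2 (by norm_num)]
    simp [Finset.prod_range_succ]
    ring
  · rw [key 7 (by norm_num) (by norm_num) 7 (by norm_num) 1 (by norm_num)]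
    simp [Finset.prod_range_succ]
    ring
  · rintro ⟨b, l⟩
    have hl := l.2
    cases b
    · have h := key (((l : ℕ) : ℤ) + 1) (by omega) (by omega) ((l : ℕ) + 1) (by push_cast; exact le_rfl) 1
        (by push_cast; ring)
      show Nat.card (J S.XZ 1 (((l : ℕ) : ℤ) + 1)) = _
      rw [h]
      clear h hl
      fin_cases l <;> simp [Finset.prod_range_succ] <;> ring
    · have h := key 8 (by omega) (by omega) (l : ℕ) (by omega) (9 - ((l : ℕ) : ℤ)) (by ring)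
      show Nat.card (J S.XZ (9 - ((l : ℕ) : ℤ)) 8) = _
      rw [h]
      clear h hl
      fin_cases l <;> simp [Finset.prod_range_succ] <;> ring

theorem T_inf_J {x : G} (hx : x ∈ S.T) (hx' : x ∈ J S.XZ 1 8) : x = 1 := by
  have h1 := orderOf_dvd_natCard (⟨x, hx⟩ : S.T)
  have h2 := orderOf_dvd_natCard (⟨x, hx'⟩ : J S.XZ 1 8)
  rw [Subgroup.orderOf_mk, Cfsg.Agent.H628.Sq.TwFTorus.card_T] at h1
  rw [Subgroup.orderOf_mk, (card_J18 S).1] at h2
  have hq : 0 < Nat.card F := Nat.card_pos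
  have h3 : Nat.Coprime ((Nat.card F - 1) ^ 2) (Nat.card F ^ 12) := by
    refine Nat.Coprime.pow _ _ ?_
    have := Nat.coprime_self_sub_left (m := 1) (n := Nat.card F) hq
    rw [this]
    exact Nat.coprime_one_left _
  exact orderOf_eq_one_iff.1 (Nat.eq_one_of_dvd_coprimes h3 h1 h2)

theorem card_BB : Nat.card (BB S) = (Nat.card F - 1) ^ 2 * Nat.card F ^ 12 := by
  rw [← Cfsg.Agent.H628.Sq.TwFTorus.card_T S, ← (card_J18 S).1]
  exact card_of_proj (T_le_BB S) (J_le_BB S) (fun x hx hx' => T_inf_J S hx hx') fun x hx => BB_form hx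

theorem card_PP' (hF : ∃ c : Fˣ, c ≠ 1) [Finite G] : Nat.card (PP S) = (Nat.card F + 1) * Nat.card (BB S) := by
  rw [card_PP S hF, card_units, (card_J18 S).2.1, card_BB]
  ring

theorem card_PB' (hF : ∃ c : Fˣ, c ≠ 1) [Finite G] : Nat.card (PB S) = (Nat.card F ^ 2 + 1) * Nat.card (BB S) := by
  rw [Cfsg.Agent.H42.Deg.F4B.card_PB S hF, card_units, (card_J18 S).2.2.1, card_BB]
  ring

/-- **the rank two data** -/
theorem r2 (hF : ∃ c : Fˣ, c ≠ 1) [Finite G] : R2 (BB S) (PP S) (PB S) (S.T ⊔ J S.XZ 2 8) (S.T ⊔ J S.XZ 1 7) (S.XZ 1)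
    (S.XZ 8) S.n1 S.n2 (Nat.card F) (Nat.card F ^ 2) 8 := by
  have Z := S.zsys8
  have D1 := frP S
  have D2 := frB S hF
  have hq : 0 < Nat.card F := Nat.card_pos
  have hD : ∀ {n : G} {a b : ℤ}, (∀ t ∈ S.T, n * t * n⁻¹ ∈ S.T) → (∀ x ∈ J S.XZ a b, n * x * n⁻¹ ∈ J S.XZ 1 8) →
      ∀ d ∈ S.T ⊔ J S.XZ a b, n * d * n⁻¹ ∈ BB S := by
    intro n a b h1 h2
    have : S.T ⊔ J S.XZ a b ≤ (BB S).comap (MulAut.conj n).toMonoidHom :=
      sup_le (fun t ht => T_le_BB S (h1 t ht)) fun x hx => J_le_BB S (h2 x hx)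
    exact fun d hd => this hd
  have ht : ∀ {n : G}, Dih S n → n⁻¹ = n → ∀ t ∈ S.T, n * t * n⁻¹ ∈ S.T := by
    intro n hn hi t ht
    have := hn.tor ht
    rwa [hi] at this ⊢
  have hd1 : Dih S S.n1 := ⟨_, Or.inr (re1 S)⟩
  have hd2 : Dih S S.n2 := ⟨_, Or.inr (re2 S)⟩
  refine
    { BP₁ := D1.BP
      BP₂ := D2.BP
      n₁P := n1_mem_PP S
      n₂P := Cfsg.Agent.H42.Deg.F4B.n2_mem_PB S
      bru₁ := ?_
      bru₂ := ?_
      D₁n := hD (ht hd1 (Arc.n1_inv S)) fun x hx => (re1 S).arc' (by norm_num) (by norm_num) hx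
      D₂n := hD (ht hd2 (Arc.n2_inv S)) fun x hx => (re2 S).arc' (by norm_num) (by norm_num) hx
      D₁X := ?_
      D₂X := ?_
      lt₁ := fun l hl x hx => J_le_BB S (lt1 S hl hx)
      lt₂ := fun l hl x hx => J_le_BB S (lt2 S hl hx)
      cov := ?_
      q₁0 := hq
      q₂0 := pow_pos hq 2
      c₁ := card_PP' S hF
      c₂ := card_PB' S hF }
  · intro g hg
    obtain ⟨l, hl, r, hr, rfl⟩ := D1.form g hg
    rcases D1.bru l hl with h | ⟨a, ha, b, hb, rfl⟩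
    · exact Or.inl (mul_mem (D1.CB h) (D1.RB hr))
    · exact Or.inr ⟨a, D1.CB ha, b * r, mul_mem (D1.CB hb) (D1.RB hr), by group⟩
  · intro g hg
    obtain ⟨l, hl, r, hr, rfl⟩ := D2.form g hg
    rcases D2.bru l hl with h | ⟨a, ha, b, hb, rfl⟩
    · exact Or.inl (mul_mem (D2.CB h) (D2.RB hr))
    · exact Or.inr ⟨a, D2.CB ha, b * r, mul_mem (D2.CB hb) (D2.RB hr), by group⟩
  · intro b hb
    obtain ⟨t, ht, u, hu, rfl⟩ := BB_form hb
    obtain ⟨y, hy, x, hx, rfl⟩ := Z.split_lr (by norm_num) (by norm_num) hu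
    exact ⟨t * y, mul_mem (Subgroup.mem_sup_left ht) (Subgroup.mem_sup_right hy), x, hx, by group⟩
  · intro b hb
    obtain ⟨t, ht, u, hu, rfl⟩ := BB_form hb
    obtain ⟨y, hy, x, hx, rfl⟩ := Z.split_rr (by norm_num) (by norm_num) hu
    exact ⟨t * y, mul_mem (Subgroup.mem_sup_left ht) (Subgroup.mem_sup_right hy), x, hx, by group⟩
  · intro g
    obtain ⟨⟨b, l, hl⟩, u, hu, c, hc, rfl⟩ := cell S g
    refine ⟨u, Jd_le S _ hu, c, hc, ?_⟩
    cases b
    · exact ⟨l + 1, by omega, Or.inl rfl⟩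
    · exact ⟨l, by omega, Or.inr rfl⟩

/-- **sums over double cosets** -/
theorem sum_cells {Y : Type*} [Group Y] [Fintype Y] {ι : Type*} [Fintype ι] (B : Subgroup Y) (Q : ι → Subgroup Y)
    (w : ι → Y) (idx : Y → ι) (hidx : ∀ g, ∃ u ∈ Q (idx g), ∃ b ∈ B, g = u * w (idx g) * b)
    (hcard : Nat.card Y = ∑ i, Nat.card (Q i) * Nat.card B) (f : ι → ℂ) :
    ∑ g, f (idx g) = ∑ i, ((Nat.card (Q i) * Nat.card B : ℕ) : ℂ) * f i := by
  classical
  have h1 : ∀ i, (Finset.univ.filter fun g => idx g = i).card ≤ Nat.card (Q i) * Nat.card B := by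
    intro i
    rw [← Nat.card_prod]
    have : Fintype (Q i × B) := Fintype.ofFinite _
    rw [Nat.card_eq_fintype_card, ← Finset.card_univ]
    refine Finset.card_le_card_of_surjOn (fun p : Q i × B => (p.1 : Y) * w i * p.2) ?_
    intro g hg
    have hg' : idx g = i := (Finset.mem_filter.1 hg).2
    obtain ⟨u, hu, b, hb, e⟩ := hidx g
    rw [hg'] at hu e
    exact ⟨(⟨u, hu⟩, ⟨b, hb⟩), Finset.mem_coe.2 (Finset.mem_univ _), e.symm⟩
  have h2 : ∑ i, (Finset.univ.filter fun g => idx g = i).card = Nat.card Y := by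
    rw [Nat.card_eq_fintype_card, ← Finset.card_univ]
    exact (Finset.card_eq_sum_card_fiberwise fun g _ => Finset.mem_coe.2 (Finset.mem_univ (idx g))).symm
  have h3 : ∀ i, (Finset.univ.filter fun g => idx g = i).card = Nat.card (Q i) * Nat.card B := by
    intro i
    exact (Finset.sum_eq_sum_iff_of_le fun i _ => h1 i).1 (h2.trans hcard) i (Finset.mem_univ i)
  calc ∑ g, f (idx g) = ∑ i, ∑ g ∈ Finset.univ.filter (fun g => idx g = i), f (idx g) :=
        (Finset.sum_fiberwise Finset.univ idx fun g => f (idx g)).symm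
    _ = ∑ i, ((Nat.card (Q i) * Nat.card B : ℕ) : ℂ) * f i := by
        refine Finset.sum_congr rfl fun i _ => ?_
        rw [Finset.sum_congr rfl (g := fun _ => f i) fun g hg => by rw [(Finset.mem_filter.1 hg).2], Finset.sum_const,
          h3 i, nsmul_eq_mul]

/-- the exponents -/
def ee (i : Bool × Fin 8) : ℕ := if i.1 then (![0, 2, 3, 5, 6, 8, 9, 11] : Fin 8 → ℕ) i.2
        else (![1, 3, 4, 6, 7, 9, 10, 12] : Fin 8 → ℕ) i.2

/-- the values of the linear character -/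
def fv (c d : ℂ) (i : Bool × Fin 8) : ℂ := if i.1 then cal d c (i.2 : ℕ) else cal c d ((i.2 : ℕ) + 1)

/-- **the Poincaré polynomial** -/
theorem poinc (q c d : ℂ) : ∑ i, q ^ ee i * (fv c d i * fv c d i) =
    (1 + q * c ^ 2) * (1 + q ^ 2 * d ^ 2) *
      (1 + (q * c ^ 2) * (q ^ 2 * d ^ 2) + ((q * c ^ 2) * (q ^ 2 * d ^ 2)) ^ 2 + ((q * c ^ 2) * (q ^ 2 * d ^ 2)) ^ 3) := by
  rw [Fintype.sum_prod_type, Fintype.sum_bool]
  simp only [Fin.sum_univ_succ, ee, fv, if_true, Bool.false_eq_true, if_false]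
  simp [cal]
  ring

theorem poincN (q : ℕ) : ∑ i, q ^ ee i = (1 + q) * (1 + q ^ 2) * (1 + q ^ 3 + q ^ 6 + q ^ 9) := by
  rw [Fintype.sum_prod_type, Fintype.sum_bool]
  simp only [Fin.sum_univ_succ, ee, if_true, Bool.false_eq_true, if_false]
  simp
  ring

/-- the order -/
theorem order (hG : Nat.card G = Nat.card F ^ 12 * (Nat.card F - 1) * (Nat.card F ^ 3 + 1) * (Nat.card F ^ 4 - 1) *
    (Nat.card F ^ 6 + 1)) : Nat.card G = ∑ i, Nat.card (Jd S i) * Nat.card (BB S) := by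
  rw [← Finset.sum_mul, Finset.sum_congr rfl fun i _ => (card_J18 S).2.2.2 i, card_BB]
  have h1 := poincN (Nat.card F)
  unfold ee at h1
  rw [h1, hG]
  have hq : 0 < Nat.card F := Nat.card_pos
  obtain ⟨k, hk⟩ : ∃ k, Nat.card F = k + 1 := ⟨Nat.card F - 1, by omega⟩
  rw [hk, Nat.add_sub_cancel]
  have e : (k + 1) ^ 4 - 1 = k * (k + 2) * ((k + 1) ^ 2 + 1) := by
    have : (k + 1) ^ 4 = k * (k + 2) * ((k + 1) ^ 2 + 1) + 1 := by ring
    omega
  rw [e]
  ring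

end Cfsg.Agent.H654.OZ
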