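import Cfsg.Agent.H654.OZ.Cells

/-!
# S4842, row `²F₄(q)`: the degree of a character with `dim V^B = 1` (helper654)
-/

set_option autoImplicit false
set_option linter.unusedSectionVars false

namespace Cfsg.Agent.H654.OZ

open Cfsg Module Cfsg.Agent.H985.VZ Cfsg.Agent.SplitTwo.ZS
open Cfsg.Agent.KFacts.TwF4 Cfsg.Agent.KFacts.TwF4.Arc Cfsg.Agent.KFacts.TwF4.SylU Cfsg.Agent.KFacts.TwF4.TorEx
open Cfsg.Agent.KFacts.TwF4.Full Cfsg.Agent.KFacts.TwF4.Irr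
open Cfsg.Agent.H42.Deg.F4 Cfsg.Agent.H628.Sq.TwFNorm Cfsg.Agent.H628.Sq.TwFHC
open Cfsg.Agent.H42.Deg.F4B (PB)

universe u v

section words

variable {Y : Type*} [Group Y]

theorem alt_inv {a b : Y} (ha : a⁻¹ = a) (hb : b⁻¹ = b) : ∀ l : ℕ, l ≤ 8 →
    (alt a b l)⁻¹ = if l % 2 = 0 then alt b a l else alt a b l := by
  intro l hl
  interval_cases l <;> simp [alt, ha, hb, mul_assoc]

theorem cal_even (c d : ℂ) : ∀ l : ℕ, l ≤ 8 → l % 2 = 0 → cal c d l = cal d c l := by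
  intro l hl h
  interval_cases l <;> simp_all [cal] <;> ring

end words

variable {F : Type*} [Field F] {σ : F →+* F} {G : Type u} [Group G] (S : Full σ G) [Finite F] [Fintype G]
  {V : Type v} [AddCommGroup V] [Module ℂ V] [FiniteDimensional ℂ V] {ρ : Representation ℂ G V}

/-- **the degree formula** -/
theorem deg_formula [ρ.IsIrreducible] (hF : ∃ c : Fˣ, c ≠ 1) (hG : Nat.card G = Nat.card F ^ 12 * (Nat.card F - 1) *
    (Nat.card F ^ 3 + 1) * (Nat.card F ^ 4 - 1) * (Nat.card F ^ 6 + 1)) (h1 : finrank ℂ (fx ρ (BB S)) = 1) :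
    ∃ c d : ℂ, (c = 1 ∨ c = -(Nat.card F : ℂ)⁻¹) ∧ (d = 1 ∨ d = -((Nat.card F ^ 2 : ℕ) : ℂ)⁻¹) ∧
      (((Nat.card F - 1) ^ 2 * Nat.card F ^ 12 : ℕ) : ℂ) * ((1 + (Nat.card F : ℂ) * c ^ 2) *
        (1 + (Nat.card F : ℂ) ^ 2 * d ^ 2) * (1 + ((Nat.card F : ℂ) * c ^ 2) * ((Nat.card F : ℂ) ^ 2 * d ^ 2) +
          (((Nat.card F : ℂ) * c ^ 2) * ((Nat.card F : ℂ) ^ 2 * d ^ 2)) ^ 2 +
          (((Nat.card F : ℂ) * c ^ 2) * ((Nat.card F : ℂ) ^ 2 * d ^ 2)) ^ 3)) * (finrank ℂ V : ℂ) = Nat.card G := by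
  classical
  have R := r2 S hF
  obtain ⟨v, hv0, hv⟩ := finrank_eq_one_iff'.1 h1
  have hl : ∀ u ∈ fx ρ (BB S), ∃ a : ℂ, u = a • (v : V) := by
    intro u hu
    obtain ⟨a, ha⟩ := hv ⟨u, hu⟩
    exact ⟨a, (congrArg Subtype.val ha).symm⟩
  have hv0' : (v : V) ≠ 0 := fun h => hv0 (Subtype.ext h)
  obtain ⟨c, hc, hc'⟩ : ∃ c : ℂ, (c = 1 ∨ c = -(Nat.card F : ℂ)⁻¹) ∧ av ρ (BB S) (ρ S.n1 v) = c • (v : V) := by
    rcases coef R.BP₁ R.n₁P R.bru₁ R.q₁0 R.c₁ v.2 hl with ⟨-, h⟩ | h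
    · exact ⟨1, Or.inl rfl, h⟩
    · exact ⟨_, Or.inr rfl, h⟩
  obtain ⟨d, hd, hd'⟩ : ∃ d : ℂ, (d = 1 ∨ d = -((Nat.card F ^ 2 : ℕ) : ℂ)⁻¹) ∧
      av ρ (BB S) (ρ S.n2 v) = d • (v : V) := by
    rcases coef R.BP₂ R.n₂P R.bru₂ R.q₂0 R.c₂ v.2 hl with ⟨-, h⟩ | h
    · exact ⟨1, Or.inl rfl, h⟩
    · exact ⟨_, Or.inr rfl, h⟩
  refine ⟨c, d, hc, hd, ?_⟩
  have hw := R.words v.2 hc' hd'
  -- values on the words and their inverses
  have w1 : ∀ i, av ρ (BB S) (ρ (wd S i) v) = fv c d i • (v : V) := by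
    rintro ⟨b, l, hl⟩
    cases b
    · exact (hw (l + 1) (by omega)).1
    · exact (hw l (by omega)).2
  have w2 : ∀ i, av ρ (BB S) (ρ (wd S i)⁻¹ v) = fv c d i • (v : V) := by
    rintro ⟨b, l, hl⟩
    cases b
    · show av ρ (BB S) (ρ (alt S.n1 S.n2 (l + 1))⁻¹ v) = cal c d (l + 1) • (v : V)
      rw [alt_inv (Arc.n1_inv S) (Arc.n2_inv S) _ (by omega)]
      split_ifs with h
      · rw [(hw (l + 1) (by omega)).2, cal_even c d _ (by omega) h]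
      · exact (hw (l + 1) (by omega)).1
    · show av ρ (BB S) (ρ (alt S.n2 S.n1 l)⁻¹ v) = cal d c l • (v : V)
      rw [alt_inv (Arc.n2_inv S) (Arc.n1_inv S) _ (by omega)]
      split_ifs with h
      · rw [(hw l (by omega)).1, cal_even c d _ (by omega) h]
      · exact (hw l (by omega)).2
  choose idx u hu b hb hg using cell S
  have e1 : ∀ g, av ρ (BB S) (ρ g v) = fv c d (idx g) • (v : V) := by
    intro g
    conv_lhs => rw [hg g]
    rw [map_mul, map_mul, Module.End.mul_apply, Module.End.mul_apply, v.2 _ (hb g), av_rho ρ (Jd_le S _ (hu g)), w1]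
  have e2 : ∀ g, fv c d (idx g⁻¹) = fv c d (idx g) := by
    intro g
    have h2 := e1 g⁻¹
    have h3 : g⁻¹ = (b g)⁻¹ * ((wd S (idx g))⁻¹ * (u g)⁻¹) := by
      conv_lhs => rw [hg g]
      group
    rw [h3, map_mul, map_mul, Module.End.mul_apply, Module.End.mul_apply, v.2 _ (inv_mem (Jd_le S _ (hu g))),
      av_rho ρ (inv_mem (hb g)), w2, ← h3] at h2
    have h4 : (fv c d (idx g) - fv c d (idx g⁻¹)) • (v : V) = 0 := by rw [sub_smul, h2, sub_self]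
    exact (sub_eq_zero.1 ((smul_eq_zero.1 h4).resolve_right hv0')).symm
  have h2 := degree h1 v.2 hv0' e1
  have h3 : ∑ g : G, fv c d (idx g) * fv c d (idx g⁻¹) = ∑ g : G, (fun i => fv c d i * fv c d i) (idx g) :=
    Finset.sum_congr rfl fun g _ => by rw [e2]
  rw [h3, sum_cells (BB S) (Jd S) (wd S) idx (fun g => ⟨u g, hu g, b g, hb g, hg g⟩) (order S hG)
    (fun i => fv c d i * fv c d i)] at h2
  rw [← h2]
  congr 1
  rw [← poinc, Finset.mul_sum]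
  refine Finset.sum_congr rfl fun i _ => ?_
  rw [(card_J18 S).2.2.2 i, card_BB]
  unfold ee
  push_cast
  ring

end Cfsg.Agent.H654.OZ
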