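import Cfsg.Agent.H654.OZ.Cells
import Cfsg.Agent.H240.BalTwF.Plus
import Cfsg.Agent.ClassicalGeometry.NonsplitTorus

/-!
# S4842, row `²F₄(q)`: the elements (helper654)

* `el_one` : two elliptic elements of `T ⊔ LO` of different orders;
* `el_two` : two elliptic elements of `T ⊔ L4` of different orders.
-/

set_option autoImplicit false
set_option linter.unusedSectionVars false

namespace Cfsg.Agent.H654.OZ

open Cfsg Cfsg.Agent.SplitTwo Cfsg.Agent.SplitTwo.ZS Cfsg.Agent.TitsThree.RankTwoZ Cfsg.Agent.SplitTwo.RootSysZ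
open Cfsg.Agent.KFacts.TwF4 Cfsg.Agent.KFacts.TwF4.Arc Cfsg.Agent.KFacts.TwF4.SylU Cfsg.Agent.KFacts.TwF4.TorEx
open Cfsg.Agent.KFacts.TwF4.Full Cfsg.Agent.KFacts.TwF4.Irr
open Cfsg.Agent.H42.Deg.F4 Cfsg.Agent.H628.Sq.TwFNorm Cfsg.Agent.H628.Sq.TwFHC
open Cfsg.Agent.H42.Deg.F4B (PB L4_le_PB)

universe u

/-! ### arithmetic -/

theorem cop_aux {a b : ℕ} (h : ∀ r : ℕ, r.Prime → r ∣ a → ¬ r ∣ b) : Nat.Coprime a b :=
  Nat.coprime_of_dvd fun r hr h1 h2 => h r hr h1 h2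

/-- a prime dividing `q + 1` or `q² + 1` does not divide `q (q - 1)`, `q` even -/
theorem prime_bad {q r : ℕ} (hq : 2 ∣ q) (hq0 : 0 < q) (hr : r.Prime) (h : r ∣ q + 1 ∨ r ∣ q ^ 2 + 1) :
    ¬ r ∣ (q - 1) ^ 2 * q ^ 12 := by
  obtain ⟨k, rfl⟩ : ∃ k, q = k + 1 := ⟨q - 1, by omega⟩
  rw [Nat.add_sub_cancel]
  have hr2 : ¬ r ∣ 2 := by
    intro h2
    have h3 := (Nat.prime_dvd_prime_iff_eq hr Nat.prime_two).1 h2
    subst h3
    rcases h with h | h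
    · omega
    · have h4 : 2 ∣ (k + 1) ^ 2 := hq.trans (dvd_pow_self _ (by norm_num))
      omega
  have h1 : ¬ r ∣ k + 1 := by
    intro h1
    rcases h with h | h
    · exact hr.one_lt.ne' (Nat.dvd_one.1 ((Nat.dvd_add_right h1).1 h))
    · exact hr.one_lt.ne' (Nat.dvd_one.1 ((Nat.dvd_add_right (h1.trans (dvd_pow_self _ (by norm_num)))).1 h))
  have h2 : ¬ r ∣ k := by
    intro h2
    rcases h with h | h
    · exact hr2 ((Nat.dvd_add_right h2).1 (by rwa [add_assoc] at h))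
    · have e : (k + 1) ^ 2 + 1 = k * (k + 2) + 2 := by ring
      rw [e] at h
      exact hr2 ((Nat.dvd_add_right (h2.mul_right _)).1 h)
  intro h3
  rcases hr.dvd_mul.1 h3 with h3 | h3
  · exact h2 (hr.dvd_of_dvd_pow h3)
  · exact h1 (hr.dvd_of_dvd_pow h3)

/-- `3 ∣ q + 1`, `3 < q + 1`, `3 ∤ q² + 1` -/
theorem three_dvd {m : ℕ} (hm : 1 ≤ m) : 3 ∣ 2 ^ (2 * m + 1) + 1 ∧ 3 < 2 ^ (2 * m + 1) + 1 ∧
    ¬ 3 ∣ (2 ^ (2 * m + 1)) ^ 2 + 1 ∧ 2 ∣ 2 ^ (2 * m + 1) := by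
  have h1 : 2 ^ (2 * m + 1) % 3 = 2 := by
    rw [pow_succ, pow_mul]
    norm_num [Nat.mul_mod, Nat.pow_mod]
  have h2 : 8 ≤ 2 ^ (2 * m + 1) := by
    calc 8 = 2 ^ 3 := by norm_num
      _ ≤ _ := Nat.pow_le_pow_right (by norm_num) (by omega)
  refine ⟨by omega, by omega, ?_, dvd_pow_self 2 (by omega)⟩
  intro h
  have h3 := Nat.mod_eq_zero_of_dvd h
  rw [Nat.add_mod, Nat.pow_mod, h1] at h3
  norm_num at h3

/-- two primes dividing `q² + 1` -/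
theorem two_primes {m : ℕ} (hm : 1 ≤ m) : ∃ r s : ℕ, r.Prime ∧ s.Prime ∧ r ≠ s ∧ r ∣ (2 ^ (2 * m + 1)) ^ 2 + 1 ∧
    s ∣ (2 ^ (2 * m + 1)) ^ 2 + 1 := by
  obtain ⟨x, hx⟩ : ∃ x, x = 2 ^ m := ⟨_, rfl⟩
  have hx2 : 2 ≤ x := by
    rw [hx]
    calc 2 = 2 ^ 1 := rfl
      _ ≤ _ := Nat.pow_le_pow_right (by norm_num) hm
  have e1 : 2 ^ (2 * m + 1) = 2 * x ^ 2 := by rw [hx]; ring
  have e2 : (2 * x ^ 2) ^ 2 + 1 = (2 * x ^ 2 + 2 * x + 1) * (2 * x ^ 2 - 2 * x + 1) := by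
    obtain ⟨y, rfl⟩ : ∃ y, x = y + 1 := ⟨x - 1, by omega⟩
    have : 2 * (y + 1) ^ 2 - 2 * (y + 1) = 2 * y ^ 2 + 2 * y := by
      have h : 2 * (y + 1) ^ 2 = 2 * y ^ 2 + 2 * y + 2 * (y + 1) := by ring
      omega
    rw [this]
    ring
  obtain ⟨r, hr, hr1⟩ := Nat.exists_prime_and_dvd (n := 2 * x ^ 2 + 2 * x + 1) (by
    have : 0 < x ^ 2 := by positivity
    omega)
  obtain ⟨s, hs, hs1⟩ := Nat.exists_prime_and_dvd (n := 2 * x ^ 2 - 2 * x + 1) (by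
    have : 2 * x ≤ x ^ 2 := by nlinarith
    have : 0 < x := by omega
    omega)
  refine ⟨r, s, hr, hs, ?_, ?_, ?_⟩
  · rintro rfl
    have h2 : r ∣ 4 * x := by
      have h3 : 2 * x ^ 2 + 2 * x + 1 = (2 * x ^ 2 - 2 * x + 1) + 4 * x := by
        have : 2 * x ≤ 2 * x ^ 2 := by nlinarith
        omega
      rw [h3] at hr1
      exact (Nat.dvd_add_right hs1).1 hr1
    have h4 : r ∣ 2 := by
      rcases hr.dvd_mul.1 h2 with h | h
      · exact hr.dvd_of_dvd_pow (show r ∣ 2 ^ 2 from h)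
      · exact hr.dvd_of_dvd_pow (hx ▸ h : r ∣ 2 ^ m)
    have h5 := (Nat.prime_dvd_prime_iff_eq hr Nat.prime_two).1 h4
    subst h5
    omega
  · rw [e1, e2]
    exact hr1.mul_right _
  · rw [e1, e2]
    exact hs1.mul_left _

section grp

variable {G : Type u} [Group G]

/-- a power of `z b` is `z` -/
theorem exists_zpow {z b : G} (hzb : Commute z b) (hc : (orderOf z).Coprime (orderOf b)) :
    ∃ k : ℤ, (z * b) ^ k = z := by
  obtain ⟨x, y, h⟩ : IsCoprime (orderOf z : ℤ) (orderOf b : ℤ) := Nat.isCoprime_iff_coprime.2 hc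
  refine ⟨y * orderOf b, ?_⟩
  rw [hzb.mul_zpow]
  have h1 : b ^ (y * (orderOf b : ℤ)) = 1 := by
    rw [mul_comm, zpow_mul, zpow_natCast, pow_orderOf_eq_one, one_zpow]
  have h2 : z ^ (y * (orderOf b : ℤ)) = z := by
    have e : y * (orderOf b : ℤ) = 1 - x * orderOf z := by linarith
    rw [e, zpow_sub, zpow_one, mul_comm x, zpow_mul, zpow_natCast, pow_orderOf_eq_one, one_zpow, inv_one, mul_one]
  rw [h1, h2, mul_one]

/-- **an elliptic element** `z b` -/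
theorem el_of [Finite G] {R L C B : Subgroup G} {z b : G} (hz : z ∈ L) (hb : b ∈ L) (hzb : z * b * z⁻¹ = b)
    (hfree : ∀ y ∈ R, z * y * z⁻¹ = y → y = 1) (hCB : C ≤ B) (hzB : z ∈ B) (hb1 : b ≠ 1)
    (hcop : (Nat.card B).Coprime (orderOf b)) :
    El R L C (z * b) ∧ orderOf (z * b) = orderOf z * orderOf b := by
  have hcm : Commute z b := mul_inv_eq_iff_eq_mul.1 hzb
  have hzo : orderOf z ∣ Nat.card B := by
    have := orderOf_dvd_natCard (⟨z, hzB⟩ : B)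
    rwa [Subgroup.orderOf_mk] at this
  have hc : (orderOf z).Coprime (orderOf b) := Nat.Coprime.coprime_dvd_left hzo hcop
  have ho := hcm.orderOf_mul_eq_mul_orderOf_of_coprime hc
  refine ⟨⟨mul_mem hz hb, fun r hr h => ?_, fun x _ h => ?_⟩, ho⟩
  · obtain ⟨k, hk⟩ := exists_zpow hcm hc
    have h1 : Commute (z * b) r := h
    have h2 := h1.zpow_left k
    rw [hk] at h2
    exact hfree r hr (by rw [h2.eq, mul_inv_cancel_right])
  · have h1 := orderOf_dvd_natCard (⟨_, hCB h⟩ : B)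
    rw [Subgroup.orderOf_mk] at h1
    have h2 : orderOf (x⁻¹ * (z * b) * x) = orderOf (z * b) := by
      have h3 := (MulAut.conj x⁻¹).orderOf_eq (z * b)
      rwa [MulAut.conj_apply, inv_inv] at h3
    rw [h2, ho] at h1
    have h3 : orderOf b ∣ Nat.card B := (dvd_mul_left _ _).trans h1
    have h4 := Nat.Coprime.eq_one_of_dvd hcop.symm h3
    exact hb1 (orderOf_eq_one_iff.1 h4)

end grp

variable {F : Type*} [Field F] {σ : F →+* F} {G : Type u} [Group G] (S : Full σ G) [Finite F] [Finite G]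

/-- **the elements of type one** -/
theorem el_one {m : ℕ} (hm : 1 ≤ m) (hq : Nat.card F = 2 ^ (2 * m + 1)) (hF : ∃ c : Fˣ, c ≠ 1) :
    ∃ z b b' : G, z ∈ S.T ∧ (∀ y ∈ J S.XZ 2 8, z * y * z⁻¹ = y → y = 1) ∧
      El (J S.XZ 2 8) (S.T ⊔ S.LO) (S.T ⊔ S.XZ 1) (z * b) ∧ El (J S.XZ 2 8) (S.T ⊔ S.LO) (S.T ⊔ S.XZ 1) (z * b') ∧
      orderOf (z * b) ≠ orderOf (z * b') ∧ orderOf (z * b) ≠ orderOf z ∧ 3 ∣ orderOf (z * b) := by
  classical
  let _ : Fintype F := Fintype.ofFinite F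
  obtain ⟨h3, h4, -, h2⟩ := three_dvd hm
  rw [← hq] at h3 h4 h2
  obtain ⟨z, hz, hz1, hz2⟩ := exists_z0 S hF
  obtain ⟨e⟩ := Cfsg.Agent.H240.BalTwF.nonempty_LO S
  obtain ⟨a, -, -, ha, -⟩ := Cfsg.Agent.ClassicalGeometry.NonsplitTorus.exists_torus (F := F)
  rw [← Nat.card_eq_fintype_card] at ha
  set c : S.LO := e.symm a with hc
  have hco : orderOf (c : G) = Nat.card F + 1 := by
    rw [Subgroup.orderOf_coe, hc, e.symm.orderOf_eq, ha]
  obtain ⟨n, hn⟩ := h3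
  have hn0 : n ≠ 0 := by rintro rfl; omega
  have hbo : orderOf ((c : G) ^ n) = 3 := by
    rw [orderOf_pow_of_dvd hn0 (by rw [hco, hn]; exact dvd_mul_left _ _), hco, hn]
    exact Nat.mul_div_cancel _ (Nat.pos_of_ne_zero hn0)
  have hcop : (Nat.card (BB S)).Coprime (Nat.card F + 1) := by
    rw [card_BB]
    refine (cop_aux fun r hr h1 h2' => ?_).symm
    exact prime_bad h2 Nat.card_pos hr (Or.inl h1) h2'
  have hcop3 : (Nat.card (BB S)).Coprime 3 := Nat.Coprime.coprime_dvd_right ⟨n, hn⟩ hcop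
  have hD := frP S
  have k1 := el_of (R := J S.XZ 2 8) (L := S.T ⊔ S.LO) (C := S.T ⊔ S.XZ 1) (B := BB S) (z := z) (b := (c : G) ^ n)
    (Subgroup.mem_sup_left hz) (Subgroup.mem_sup_right (pow_mem c.2 n)) (hz1 _ (pow_mem c.2 n)) hz2 hD.CB
    (T_le_BB S hz) (fun h => by
      rw [h, orderOf_one] at hbo
      omega) (by rw [hbo]; exact hcop3)
  have k2 := el_of (R := J S.XZ 2 8) (L := S.T ⊔ S.LO) (C := S.T ⊔ S.XZ 1) (B := BB S) (z := z) (b := (c : G))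
    (Subgroup.mem_sup_left hz) (Subgroup.mem_sup_right c.2) (hz1 _ c.2) hz2 hD.CB (T_le_BB S hz) (fun h => by
      rw [h, orderOf_one] at hco
      omega) (by rw [hco]; exact hcop)
  have hz0 : 0 < orderOf z := orderOf_pos z
  refine ⟨z, (c : G) ^ n, c, hz, hz2, k1.1, k2.1, ?_, ?_, ?_⟩
  · rw [k1.2, k2.2, hbo, hco]
    intro h
    have := Nat.eq_of_mul_eq_mul_left hz0 h
    omega
  · rw [k1.2, hbo]
    omega
  · rw [k1.2, hbo]
    exact dvd_mul_left _ _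

/-- **the elements of type two** -/
theorem el_two {m : ℕ} (hm : 1 ≤ m) (hq : Nat.card F = 2 ^ (2 * m + 1)) (hF : ∃ c : Fˣ, c ≠ 1) :
    ∃ z b b' : G, z ∈ S.T ∧ (∀ y ∈ J S.XZ 1 7, z * y * z⁻¹ = y → y = 1) ∧
      El (J S.XZ 1 7) (S.T ⊔ L4 S) (S.T ⊔ S.XZ 8) (z * b) ∧ El (J S.XZ 1 7) (S.T ⊔ L4 S) (S.T ⊔ S.XZ 8) (z * b') ∧
      orderOf (z * b) ≠ orderOf (z * b') ∧ orderOf (z * b) ≠ orderOf z ∧ ¬ 3 ∣ orderOf (z * b) := by
  classical
  obtain ⟨g1, -, h3, h2⟩ := three_dvd hm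
  obtain ⟨r, s, hr, hs, hrs, hr1, hs1⟩ := two_primes hm
  rw [← hq] at h3 h2 hr1 hs1 g1
  obtain ⟨z, hz, hz1, hz2⟩ := Cfsg.Agent.H42.Deg.F4B.exists_z0 S hF
  have hL : Nat.card F ^ 2 + 1 ∣ Nat.card (L4 S) := by
    rw [Cfsg.Agent.H42.Deg.F4B.card_L4 S hF, ← pow_two]
    exact dvd_mul_left _ _
  have hex : ∀ r : ℕ, r.Prime → r ∣ Nat.card F ^ 2 + 1 → ∃ b ∈ L4 S, orderOf b = r := by
    intro r hr h
    have : Fact r.Prime := ⟨hr⟩
    obtain ⟨x, hx⟩ := exists_prime_orderOf_dvd_card' (G := L4 S) r (h.trans hL)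
    exact ⟨x, x.2, by rw [Subgroup.orderOf_coe, hx]⟩
  obtain ⟨b, hb, hbo⟩ := hex r hr hr1
  obtain ⟨c, hc, hco⟩ := hex s hs hs1
  have hcop : ∀ r : ℕ, r.Prime → r ∣ Nat.card F ^ 2 + 1 → (Nat.card (BB S)).Coprime r := by
    intro r hr h
    rw [card_BB]
    refine ((Nat.Prime.coprime_iff_not_dvd hr).2 ?_).symm
    exact prime_bad h2 Nat.card_pos hr (Or.inr h)
  have hD := frB S hF
  have k1 := el_of (R := J S.XZ 1 7) (L := S.T ⊔ L4 S) (C := S.T ⊔ S.XZ 8) (B := BB S) (z := z) (b := b)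
    (Subgroup.mem_sup_left hz) (Subgroup.mem_sup_right hb) (hz1 _ hb) hz2 hD.CB
    (T_le_BB S hz) (fun h => by
      rw [h, orderOf_one] at hbo
      exact hr.one_lt.ne hbo) (by rw [hbo]; exact hcop r hr hr1)
  have k2 := el_of (R := J S.XZ 1 7) (L := S.T ⊔ L4 S) (C := S.T ⊔ S.XZ 8) (B := BB S) (z := z) (b := c)
    (Subgroup.mem_sup_left hz) (Subgroup.mem_sup_right hc) (hz1 _ hc) hz2 hD.CB (T_le_BB S hz) (fun h => by
      rw [h, orderOf_one] at hco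
      exact hs.one_lt.ne hco) (by rw [hco]; exact hcop s hs hs1)
  have hz0 : 0 < orderOf z := orderOf_pos z
  refine ⟨z, b, c, hz, hz2, k1.1, k2.1, ?_, ?_, ?_⟩
  · rw [k1.2, k2.2, hbo, hco]
    intro h
    exact hrs (Nat.eq_of_mul_eq_mul_left hz0 h)
  · rw [k1.2, hbo]
    intro h
    have h5 := Nat.eq_of_mul_eq_mul_left hz0 (h.trans (mul_one _).symm)
    exact hr.one_lt.ne' h5
  · rw [k1.2, hbo]
    intro h
    rcases Nat.prime_three.dvd_mul.1 h with h | h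
    · have h5 := orderOf_dvd_natCard (⟨z, T_le_BB S hz⟩ : BB S)
      rw [Subgroup.orderOf_mk, card_BB] at h5
      exact prime_bad h2 Nat.card_pos Nat.prime_three (Or.inl g1) (h.trans h5)
    · rw [(Nat.prime_dvd_prime_iff_eq Nat.prime_three hr).1 h] at h3
      exact h3 hr1

end Cfsg.Agent.H654.OZ
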