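import Cfsg.Agent.H985.VZ.El
import Cfsg.Agent.Characters.DegreeBounds

/-!
# S4842, row `²F₄(q)`: the Hecke algebra of a group with a BN pair of rank two (helper654)

`ρ` irreducible, `E = V^B`, `P_i = B ∪ B n_i B`.
* `R2.line`  : a common eigenvector of the two averages spans `E`;
* `R2.half`  : if `dim E ≥ 2`, then `2 dim V^(P_i) = dim E`;
* `R2.coef`  : if `dim E = 1`, the values of the linear character of the Hecke algebra;
* `R2.degree` : `|G| = χ(1) ∑_g F(g) F(g⁻¹)`.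
-/

set_option autoImplicit false
set_option linter.unusedSectionVars false

open Cfsg

namespace Cfsg.Agent.H654.OZ

open Module Cfsg.Agent.H985.VZ Cfsg.Agent.Characters

universe u v

variable {Y : Type u} [Group Y]

/-- alternating words -/
def alt (a b : Y) : ℕ → Y
  | 0 => 1
  | l + 1 => a * alt b a l

/-- alternating products -/
def cal (c d : ℂ) : ℕ → ℂ
  | 0 => 1
  | l + 1 => c * cal d c l

/-- two parabolic subgroups over `B` -/
structure R2 (B P₁ P₂ D₁ D₂ X₁ X₂ : Subgroup Y) (n₁ n₂ : Y) (q₁ q₂ m : ℕ) : Prop where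
  BP₁ : B ≤ P₁
  BP₂ : B ≤ P₂
  n₁P : n₁ ∈ P₁
  n₂P : n₂ ∈ P₂
  bru₁ : ∀ g ∈ P₁, g ∈ B ∨ ∃ a ∈ B, ∃ b ∈ B, g = a * n₁ * b
  bru₂ : ∀ g ∈ P₂, g ∈ B ∨ ∃ a ∈ B, ∃ b ∈ B, g = a * n₂ * b
  D₁n : ∀ d ∈ D₁, n₁ * d * n₁⁻¹ ∈ B
  D₂n : ∀ d ∈ D₂, n₂ * d * n₂⁻¹ ∈ B
  D₁X : ∀ b ∈ B, ∃ d ∈ D₁, ∃ x ∈ X₁, b = d * x
  D₂X : ∀ b ∈ B, ∃ d ∈ D₂, ∃ x ∈ X₂, b = d * x
  lt₁ : ∀ l < m, ∀ x ∈ X₁, (alt n₂ n₁ l)⁻¹ * x * alt n₂ n₁ l ∈ B
  lt₂ : ∀ l < m, ∀ x ∈ X₂, (alt n₁ n₂ l)⁻¹ * x * alt n₁ n₂ l ∈ B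
  cov : ∀ g, ∃ a ∈ B, ∃ b ∈ B, ∃ l ≤ m, g = a * alt n₁ n₂ l * b ∨ g = a * alt n₂ n₁ l * b
  q₁0 : 0 < q₁
  q₂0 : 0 < q₂
  c₁ : Nat.card P₁ = (q₁ + 1) * Nat.card B
  c₂ : Nat.card P₂ = (q₂ + 1) * Nat.card B

variable {V : Type v} [AddCommGroup V] [Module ℂ V] {ρ : Representation ℂ Y V}

section fin

variable [Finite Y]

/-- the average over `P = B ∪ B n B` of a `B`-fixed vector -/
theorem av_P {B P : Subgroup Y} (hBP : B ≤ P) {n : Y} (hb : ∀ g ∈ P, g ∈ B ∨ ∃ a ∈ B, ∃ b ∈ B, g = a * n * b)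
    {v : V} (hv : v ∈ fx ρ B) :
    (Nat.card P : ℂ) • av ρ P v = (Nat.card B : ℂ) • v + ((Nat.card P : ℂ) - Nat.card B) • av ρ B (ρ n v) := by
  classical
  have : Fintype P := Fintype.ofFinite _
  have : Fintype B := Fintype.ofFinite _
  have h1 : av ρ P v = av ρ B (av ρ P v) := (av_of_mem (fx_mono hBP (av_mem ρ P v))).symm
  have h2 : ∀ p : P, av ρ B (ρ p v) = if (p : Y) ∈ B then v else av ρ B (ρ n v) := by
    intro p
    split_ifs with h
    · rw [av_rho ρ h, av_of_mem hv]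
    · rcases hb p p.2 with h' | ⟨a, ha, b, hb', e⟩
      · exact absurd h' h
      · rw [e, map_mul, map_mul, Module.End.mul_apply, Module.End.mul_apply, hv b hb', av_rho ρ ha]
  have hP0 : (Nat.card P : ℂ) ≠ 0 := card_ne P
  rw [h1, av_apply ρ P, map_smul, map_sum, smul_smul, mul_inv_cancel₀ hP0, one_smul, Finset.sum_congr rfl fun p _ => h2 p,
    Finset.sum_ite, Finset.sum_const, Finset.sum_const]
  have h3 : (Finset.univ.filter fun p : P => (p : Y) ∈ B).card = Nat.card B := by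
    rw [Nat.card_eq_fintype_card, ← Fintype.card_subtype]
    exact Fintype.card_congr (Subgroup.subgroupOfEquivOfLe hBP).toEquiv
  have h4 : (Finset.univ.filter fun p : P => ¬ (p : Y) ∈ B).card = Nat.card P - Nat.card B := by
    have := Finset.card_filter_add_card_filter_not (s := (Finset.univ : Finset P)) fun p : P => (p : Y) ∈ B
    rw [Finset.card_univ, ← Nat.card_eq_fintype_card, h3] at this
    omega
  have h5 : Nat.card B ≤ Nat.card P := Nat.card_le_card_of_injective _ (Subgroup.inclusion_injective hBP)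
  rw [h3, h4, ← Nat.cast_smul_eq_nsmul ℂ, ← Nat.cast_smul_eq_nsmul ℂ, Nat.cast_sub h5]

/-- multiplicativity -/
theorem av_n_av {B D X : Subgroup Y} {n : Y} (hD : ∀ d ∈ D, n * d * n⁻¹ ∈ B)
    (hB : ∀ b ∈ B, ∃ d ∈ D, ∃ x ∈ X, b = d * x) {u : V} (hu : u ∈ fx ρ X) :
    av ρ B (ρ n (av ρ B u)) = av ρ B (ρ n u) := by
  classical
  have : Fintype B := Fintype.ofFinite _
  have h1 : ∀ b : B, av ρ B (ρ n (ρ b u)) = av ρ B (ρ n u) := by
    intro b
    obtain ⟨d, hd, x, hx, e⟩ := hB b b.2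
    have e1 : ρ n (ρ b u) = ρ (n * d * n⁻¹) (ρ n u) := by
      rw [e, map_mul, Module.End.mul_apply, hu x hx, ← Module.End.mul_apply, ← Module.End.mul_apply, ← map_mul,
        ← map_mul, inv_mul_cancel_right]
    rw [e1, av_rho ρ (hD d hd)]
  rw [av_apply ρ B u, map_smul, map_smul, map_sum, map_sum, Finset.sum_congr rfl fun b _ => h1 b, Finset.sum_const,
    Finset.card_univ, ← Nat.card_eq_fintype_card, ← Nat.cast_smul_eq_nsmul ℂ, smul_smul, inv_mul_cancel₀ (card_ne B),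
    one_smul]

end fin

/-- the vectors `ρ g v` span -/
theorem span_top [ρ.IsIrreducible] {v : V} (hv : v ≠ 0) {M : Submodule ℂ V} (hM : ∀ g, ρ g v ∈ M) : M = ⊤ := by
  have h1 : Submodule.span ℂ (Set.range fun g => ρ g v) = ⊤ := by
    apply DegreeBounds.eq_top_of_stable ρ
    · intro g u hu
      induction hu using Submodule.span_induction with
      | mem x hx =>
        obtain ⟨q, rfl⟩ := hx
        refine Submodule.subset_span ⟨g * q, ?_⟩
        show ρ (g * q) v = ρ g (ρ q v)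
        rw [map_mul]
        rfl
      | zero => rw [map_zero]; exact Submodule.zero_mem _
      | add x y _ _ hx hy => rw [map_add]; exact Submodule.add_mem _ hx hy
      | smul a x _ hx => rw [map_smul]; exact Submodule.smul_mem _ _ hx
    · intro h
      apply hv
      have h1 : ρ 1 v ∈ Submodule.span ℂ (Set.range fun g => ρ g v) := Submodule.subset_span ⟨1, rfl⟩
      rw [h, Submodule.mem_bot, map_one] at h1
      exact h1
  rw [eq_top_iff, ← h1, Submodule.span_le]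
  rintro _ ⟨g, rfl⟩
  exact hM g

/-- **Schur** -/
theorem schur [ρ.IsIrreducible] [FiniteDimensional ℂ V] [Nontrivial V] (M : Module.End ℂ V)
    (hM : ∀ g v, M (ρ g v) = ρ g (M v)) : ∃ c : ℂ, ∀ v, M v = c • v := by
  obtain ⟨c, hc⟩ := Module.End.exists_eigenvalue M
  refine ⟨c, fun v => ?_⟩
  have h1 : Module.End.eigenspace M c = ⊤ := by
    apply DegreeBounds.eq_top_of_stable ρ
    · intro g u hu
      rw [Module.End.mem_eigenspace_iff] at hu ⊢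
      rw [hM, hu, map_smul]
    · exact hc
  have h2 : v ∈ Module.End.eigenspace M c := by rw [h1]; exact Submodule.mem_top
  exact Module.End.mem_eigenspace_iff.1 h2

section two

variable [Finite Y] {B P₁ P₂ D₁ D₂ X₁ X₂ : Subgroup Y} {n₁ n₂ : Y} {q₁ q₂ m : ℕ}

/-- the values on the words -/
theorem R2.words (R : R2 B P₁ P₂ D₁ D₂ X₁ X₂ n₁ n₂ q₁ q₂ m) {v : V} (hv : v ∈ fx ρ B) {c₁ c₂ : ℂ}
    (h1 : av ρ B (ρ n₁ v) = c₁ • v) (h2 : av ρ B (ρ n₂ v) = c₂ • v) : ∀ l ≤ m,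
    av ρ B (ρ (alt n₁ n₂ l) v) = cal c₁ c₂ l • v ∧ av ρ B (ρ (alt n₂ n₁ l) v) = cal c₂ c₁ l • v := by
  intro l
  induction l with
  | zero =>
    intro _
    simp only [alt, cal, map_one, Module.End.one_apply, one_smul, av_of_mem hv, and_self]
  | succ l ih =>
    intro hl
    obtain ⟨i1, i2⟩ := ih (by omega)
    have key : ∀ {X : Subgroup Y} {w : Y}, (∀ x ∈ X, w⁻¹ * x * w ∈ B) → ρ w v ∈ fx ρ X := by
      intro X w h x hx
      have e : ρ x (ρ w v) = ρ w (ρ (w⁻¹ * x * w) v) := by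
        rw [← Module.End.mul_apply, ← Module.End.mul_apply, ← map_mul, ← map_mul]
        congr 2
        group
      rw [e, hv _ (h x hx)]
    constructor
    · show av ρ B (ρ (n₁ * alt n₂ n₁ l) v) = (c₁ * cal c₂ c₁ l) • v
      rw [map_mul, Module.End.mul_apply, ← av_n_av R.D₁n R.D₁X (key (R.lt₁ l (by omega))), i2, map_smul, map_smul, h1,
        smul_smul, mul_comm]
    · show av ρ B (ρ (n₂ * alt n₁ n₂ l) v) = (c₂ * cal c₁ c₂ l) • v
      rw [map_mul, Module.End.mul_apply, ← av_n_av R.D₂n R.D₂X (key (R.lt₂ l (by omega))), i1, map_smul, map_smul, h2,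
        smul_smul, mul_comm]

/-- **a common eigenvector spans `V^B`** -/
theorem R2.line (R : R2 B P₁ P₂ D₁ D₂ X₁ X₂ n₁ n₂ q₁ q₂ m) [ρ.IsIrreducible] {v : V} (hv : v ∈ fx ρ B) (hv0 : v ≠ 0)
    {c₁ c₂ : ℂ} (h1 : av ρ B (ρ n₁ v) = c₁ • v) (h2 : av ρ B (ρ n₂ v) = c₂ • v) {u : V} (hu : u ∈ fx ρ B) :
    ∃ a : ℂ, u = a • v := by
  have hw := R.words hv h1 h2
  have h3 : (Submodule.span ℂ {v}).comap (av ρ B) = ⊤ := by
    refine span_top (ρ := ρ) hv0 fun g => ?_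
    show av ρ B (ρ g v) ∈ Submodule.span ℂ {v}
    obtain ⟨a, ha, b, hb, l, hl, rfl | rfl⟩ := R.cov g
    · rw [map_mul, map_mul, Module.End.mul_apply, Module.End.mul_apply, hv b hb, av_rho ρ ha, (hw l hl).1]
      exact Submodule.smul_mem _ _ (Submodule.mem_span_singleton_self v)
    · rw [map_mul, map_mul, Module.End.mul_apply, Module.End.mul_apply, hv b hb, av_rho ρ ha, (hw l hl).2]
      exact Submodule.smul_mem _ _ (Submodule.mem_span_singleton_self v)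
  have h4 : u ∈ (Submodule.span ℂ {v}).comap (av ρ B) := by rw [h3]; exact Submodule.mem_top
  have h5 : av ρ B u ∈ Submodule.span ℂ {v} := h4
  rw [av_of_mem hu] at h5
  obtain ⟨a, ha⟩ := Submodule.mem_span_singleton.1 h5
  exact ⟨a, ha.symm⟩

/-- the eigenvectors -/
theorem eig_fix {P : Subgroup Y} (hBP : B ≤ P) {n : Y} (hn : n ∈ P) {v : V} (hv : v ∈ fx ρ P) :
    av ρ B (ρ n v) = (1 : ℂ) • v := by
  rw [hv n hn, av_of_mem (fx_mono hBP hv), one_smul]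

theorem eig_ker {P : Subgroup Y} (hBP : B ≤ P) {n : Y} (hb : ∀ g ∈ P, g ∈ B ∨ ∃ a ∈ B, ∃ b ∈ B, g = a * n * b)
    {q : ℕ} (hq : 0 < q) (hc : Nat.card P = (q + 1) * Nat.card B) {v : V} (hv : v ∈ fx ρ B) (h0 : av ρ P v = 0) :
    av ρ B (ρ n v) = (-(q : ℂ)⁻¹) • v := by
  have h1 := av_P hBP hb hv
  have hB0 : (Nat.card B : ℂ) ≠ 0 := card_ne B
  have hq0 : (q : ℂ) ≠ 0 := by exact_mod_cast hq.ne'
  rw [h0, smul_zero, hc] at h1
  push_cast at h1
  have e : ((q : ℂ) + 1) * Nat.card B - Nat.card B = Nat.card B * q := by ring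
  rw [e, mul_smul, ← smul_add, eq_comm] at h1
  have h2 := (smul_eq_zero.1 h1).resolve_left hB0
  have h3 : (q : ℂ) • av ρ B (ρ n v) = -v := by rw [eq_neg_iff_add_eq_zero, add_comm]; exact h2
  calc av ρ B (ρ n v) = (q : ℂ)⁻¹ • ((q : ℂ) • av ρ B (ρ n v)) := by rw [smul_smul, inv_mul_cancel₀ hq0, one_smul]
    _ = _ := by rw [h3, smul_neg, neg_smul]

variable [FiniteDimensional ℂ V]

/-- `V^B = V^P ⊕ ker` -/
theorem finrank_split {P : Subgroup Y} (hBP : B ≤ P) :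
    finrank ℂ (fx ρ P) + finrank ℂ ↥(fx ρ B ⊓ LinearMap.ker (av ρ P)) = finrank ℂ (fx ρ B) := by
  let f : fx ρ B →ₗ[ℂ] V := (av ρ P).comp (fx ρ B).subtype
  have h1 := LinearMap.finrank_range_add_finrank_ker f
  have h2 : LinearMap.range f = fx ρ P := by
    apply le_antisymm
    · rintro _ ⟨v, rfl⟩
      exact av_mem ρ P _
    · intro v hv
      exact ⟨⟨v, fx_mono hBP hv⟩, av_of_mem hv⟩
  have h3 : finrank ℂ (LinearMap.ker f) = finrank ℂ ↥(fx ρ B ⊓ LinearMap.ker (av ρ P)) := by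
    have h4 : (LinearMap.ker f).map (fx ρ B).subtype = fx ρ B ⊓ LinearMap.ker (av ρ P) := by
      ext v
      constructor
      · rintro ⟨w, hw, rfl⟩
        exact ⟨w.2, hw⟩
      · rintro ⟨hv, hv'⟩
        exact ⟨⟨v, hv⟩, hv', rfl⟩
    rw [← h4]
    exact (Submodule.equivMapOfInjective (fx ρ B).subtype (fx ρ B).injective_subtype _).finrank_eq
  rw [h2, h3] at h1
  exact h1

/-- disjoint subspaces of `E` -/
theorem finrank_disj {E A K : Submodule ℂ V} (hA : A ≤ E) (hK : K ≤ E) (h : ∀ v ∈ A, v ∈ K → v = 0) :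
    finrank ℂ A + finrank ℂ K ≤ finrank ℂ E := by
  have h1 := Submodule.finrank_sup_add_finrank_inf_eq A K
  have h2 : A ⊓ K = ⊥ := by
    rw [Submodule.eq_bot_iff]
    rintro v ⟨hv, hv'⟩
    exact h v hv hv'
  rw [h2, finrank_bot, add_zero] at h1
  rw [← h1]
  exact Submodule.finrank_mono (sup_le hA hK)

/-- **if `dim V^B ≥ 2`, then `2 dim V^(P_i) = dim V^B`** -/
theorem R2.half (R : R2 B P₁ P₂ D₁ D₂ X₁ X₂ n₁ n₂ q₁ q₂ m) [ρ.IsIrreducible] (h : 2 ≤ finrank ℂ (fx ρ B)) :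
    2 * finrank ℂ (fx ρ P₁) = finrank ℂ (fx ρ B) ∧ 2 * finrank ℂ (fx ρ P₂) = finrank ℂ (fx ρ B) := by
  have key : ∀ v ∈ fx ρ B, (∃ c : ℂ, av ρ B (ρ n₁ v) = c • v) → (∃ c : ℂ, av ρ B (ρ n₂ v) = c • v) → v = 0 := by
    rintro v hv ⟨c₁, h1⟩ ⟨c₂, h2⟩
    by_contra hv0
    have h3 : fx ρ B ≤ Submodule.span ℂ {v} := fun u hu => by
      obtain ⟨a, rfl⟩ := R.line hv hv0 h1 h2 hu
      exact Submodule.smul_mem _ _ (Submodule.mem_span_singleton_self v)
    have h4 := Submodule.finrank_mono h3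
    have h5 := finrank_span_le_card (R := ℂ) ({v} : Set V)
    simp only [Set.toFinset_singleton, Finset.card_singleton] at h5
    omega
  have a1 : fx ρ P₁ ≤ fx ρ B := fx_mono R.BP₁
  have a2 : fx ρ P₂ ≤ fx ρ B := fx_mono R.BP₂
  have f1 : ∀ v ∈ fx ρ P₁, ∃ c : ℂ, av ρ B (ρ n₁ v) = c • v := fun v hv => ⟨1, eig_fix R.BP₁ R.n₁P hv⟩
  have f2 : ∀ v ∈ fx ρ P₂, ∃ c : ℂ, av ρ B (ρ n₂ v) = c • v := fun v hv => ⟨1, eig_fix R.BP₂ R.n₂P hv⟩
  have g1 : ∀ v ∈ fx ρ B ⊓ LinearMap.ker (av ρ P₁), ∃ c : ℂ, av ρ B (ρ n₁ v) = c • v := fun v hv =>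
    ⟨_, eig_ker R.BP₁ R.bru₁ R.q₁0 R.c₁ hv.1 hv.2⟩
  have g2 : ∀ v ∈ fx ρ B ⊓ LinearMap.ker (av ρ P₂), ∃ c : ℂ, av ρ B (ρ n₂ v) = c • v := fun v hv =>
    ⟨_, eig_ker R.BP₂ R.bru₂ R.q₂0 R.c₂ hv.1 hv.2⟩
  have e1 := finrank_split (ρ := ρ) R.BP₁
  have e2 := finrank_split (ρ := ρ) R.BP₂
  have d1 := finrank_disj a1 a2 fun v hv hv' => key v (a1 hv) (f1 v hv) (f2 v hv')
  have d2 := finrank_disj a1 inf_le_left fun v hv hv' => key v (a1 hv) (f1 v hv) (g2 v hv')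
  have d3 := finrank_disj a2 inf_le_left fun v hv hv' => key v (a2 hv) (g1 v hv') (f2 v hv)
  have d4 := finrank_disj (inf_le_left : fx ρ B ⊓ LinearMap.ker (av ρ P₁) ≤ fx ρ B)
    (inf_le_left : fx ρ B ⊓ LinearMap.ker (av ρ P₂) ≤ fx ρ B) fun v hv hv' => key v hv.1 (g1 v hv) (g2 v hv')
  omega

/-- **the linear character of the Hecke algebra** -/
theorem coef {P : Subgroup Y} (hBP : B ≤ P) {n : Y} (hn : n ∈ P)
    (hb : ∀ g ∈ P, g ∈ B ∨ ∃ a ∈ B, ∃ b ∈ B, g = a * n * b) {q : ℕ} (hq : 0 < q)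
    (hc : Nat.card P = (q + 1) * Nat.card B) {v : V} (hv : v ∈ fx ρ B) (hl : ∀ u ∈ fx ρ B, ∃ a : ℂ, u = a • v) :
    (v ∈ fx ρ P ∧ av ρ B (ρ n v) = (1 : ℂ) • v) ∨ av ρ B (ρ n v) = (-(q : ℂ)⁻¹) • v := by
  obtain ⟨a, ha⟩ := hl _ (fx_mono hBP (av_mem ρ P v))
  by_cases h0 : a = 0
  · right
    rw [h0, zero_smul] at ha
    exact eig_ker hBP hb hq hc hv ha
  · left
    have h1 : v ∈ fx ρ P := by
      have h2 : v = a⁻¹ • av ρ P v := by rw [ha, smul_smul, inv_mul_cancel₀ h0, one_smul]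
      rw [h2]
      exact Submodule.smul_mem _ _ (av_mem ρ P v)
    exact ⟨h1, eig_fix hBP hn h1⟩

/-- **the degree formula** -/
theorem degree [Fintype Y] [ρ.IsIrreducible] (h1 : finrank ℂ (fx ρ B) = 1) {v : V} (hv : v ∈ fx ρ B) (hv0 : v ≠ 0)
    {f : Y → ℂ} (hf : ∀ g, av ρ B (ρ g v) = f g • v) :
    (∑ g : Y, f g * f g⁻¹) * (finrank ℂ V : ℂ) = Nat.card Y := by
  classical
  have hnt : Nontrivial V := ⟨v, 0, hv0⟩
  let M : Module.End ℂ V := ∑ g : Y, ρ g⁻¹ * av ρ B * ρ g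
  obtain ⟨c, hc⟩ := schur (ρ := ρ) M (by
    intro g w
    simp only [M, LinearMap.sum_apply, Module.End.mul_apply, map_sum]
    refine Fintype.sum_equiv (Equiv.mulRight g) _ _ fun x => ?_
    show ρ x⁻¹ (av ρ B (ρ x (ρ g w))) = ρ g (ρ (x * g)⁻¹ (av ρ B (ρ (x * g) w)))
    rw [← Module.End.mul_apply (ρ x), ← map_mul, ← Module.End.mul_apply (ρ g), ← map_mul]
    congr 2
    group)
  -- the trace
  have ht : c * finrank ℂ V = Nat.card Y := by
    have e1 : M = c • (1 : Module.End ℂ V) := LinearMap.ext fun w => hc w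
    have e2 : LinearMap.trace ℂ V M = c * finrank ℂ V := by
      rw [e1, map_smul, LinearMap.trace_one, smul_eq_mul]
    rw [← e2]
    simp only [M, map_sum]
    have e3 : ∀ g : Y, LinearMap.trace ℂ V (ρ g⁻¹ * av ρ B * ρ g) = 1 := by
      intro g
      rw [LinearMap.trace_mul_comm, ← mul_assoc, ← map_mul, mul_inv_cancel, map_one, one_mul]
      have := trace_el ρ B 1
      rw [eig_one, h1, Nat.cast_one] at this
      exact this
    rw [Finset.sum_congr rfl fun g _ => e3 g, Finset.sum_const, Finset.card_univ, nsmul_eq_mul, mul_one,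
      Nat.card_eq_fintype_card]
  -- apply to `v`
  have hs : ∑ g : Y, f g * f g⁻¹ = c := by
    have e1 : av ρ B (M v) = c • v := by rw [hc, map_smul, av_of_mem hv]
    have e2 : av ρ B (M v) = (∑ g : Y, f g * f g⁻¹) • v := by
      simp only [M, LinearMap.sum_apply, Module.End.mul_apply, map_sum]
      rw [Finset.sum_smul]
      refine Finset.sum_congr rfl fun g _ => ?_
      rw [hf, map_smul, map_smul, hf, smul_smul]
    rw [e2] at e1
    have e3 : ((∑ g : Y, f g * f g⁻¹) - c) • v = 0 := by rw [sub_smul, e1, sub_self]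
    exact sub_eq_zero.1 ((smul_eq_zero.1 e3).resolve_right hv0)
  rw [hs, ht]

end two

end Cfsg.Agent.H654.OZ
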