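import Cfsg.Agent.H654.OZ.Abs
import Cfsg.Agent.H654.OZ.Hecke

/-!
# S4842, row `²F₄(q)`: the geometry (helper654)

* `Ro w c`, `Re w c` : `w` acts on the indices as `k ↦ 2 c + k`, `k ↦ 2 c - k`;
* `frP`, `frB` : the parabolic subgroups `PP`, `PB` as frames `Fr`;
* `r2` : the rank two data `R2`;
* `card_J` : the orders of the arcs; `sum_cells` : sums over the double cosets of the Borel subgroup.
-/

set_option autoImplicit false
set_option linter.unusedSectionVars false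

namespace Cfsg.Agent.H654.OZ

open Cfsg Cfsg.Agent.SplitTwo Cfsg.Agent.SplitTwo.ZS Cfsg.Agent.TitsThree.RankTwoZ Cfsg.Agent.SplitTwo.RootSysZ
open Cfsg.Agent.KFacts.TwF4 Cfsg.Agent.KFacts.TwF4.Arc Cfsg.Agent.KFacts.TwF4.SylU Cfsg.Agent.KFacts.TwF4.TorEx
open Cfsg.Agent.KFacts.TwF4.Full Cfsg.Agent.KFacts.TwF4.Irr
open Cfsg.Agent.H42.Deg.F4 Cfsg.Agent.H628.Sq.TwFNorm Cfsg.Agent.H628.Sq.TwFHC
open Cfsg.Agent.H42.Deg.F4B (PB NB NB_form PB_form J_le_PB T_le_PB L4_le_PB NB_le_PB rot4_T)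

universe u

variable {F : Type*} [Field F] {σ : F →+* F} {G : Type u} [Group G] (S : Full σ G)

/-- the rotation `k ↦ 2 c + k` -/
def Ro (w : G) (c : ℤ) : Prop := Maps S.R.X w (fun k => ((2 * c : ℤ) : ZMod (2 * 8)) + k)

/-- the reflection `k ↦ 2 c - k` -/
def Re (w : G) (c : ℤ) : Prop := Maps S.R.X w (fun k => ((2 * c : ℤ) : ZMod (2 * 8)) - k)

variable {S}

theorem Ro.mul {w v : G} {a b : ℤ} (h : Ro S w a) (h' : Ro S v b) : Ro S (w * v) (a + b) :=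
  (Maps.mul h h').congr fun k => by
    show ((2 * a : ℤ) : ZMod (2 * 8)) + (((2 * b : ℤ) : ZMod (2 * 8)) + k) = ((2 * (a + b) : ℤ) : ZMod (2 * 8)) + k
    push_cast
    ring

theorem Ro.mulRe {w v : G} {a b : ℤ} (h : Ro S w a) (h' : Re S v b) : Re S (w * v) (a + b) :=
  (Maps.mul h h').congr fun k => by
    show ((2 * a : ℤ) : ZMod (2 * 8)) + (((2 * b : ℤ) : ZMod (2 * 8)) - k) = ((2 * (a + b) : ℤ) : ZMod (2 * 8)) - k
    push_cast
    ring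

theorem Re.mul {w v : G} {a b : ℤ} (h : Re S w a) (h' : Re S v b) : Ro S (w * v) (a - b) :=
  (Maps.mul h h').congr fun k => by
    show ((2 * a : ℤ) : ZMod (2 * 8)) - (((2 * b : ℤ) : ZMod (2 * 8)) - k) = ((2 * (a - b) : ℤ) : ZMod (2 * 8)) + k
    push_cast
    ring

theorem Re.mulRo {w v : G} {a b : ℤ} (h : Re S w a) (h' : Ro S v b) : Re S (w * v) (a - b) :=
  (Maps.mul h h').congr fun k => by
    show ((2 * a : ℤ) : ZMod (2 * 8)) - (((2 * b : ℤ) : ZMod (2 * 8)) + k) = ((2 * (a - b) : ℤ) : ZMod (2 * 8)) - k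
    push_cast
    ring

theorem Ro.inv {w : G} {a : ℤ} (h : Ro S w a) : Ro S w⁻¹ (-a) :=
  Maps.inv h fun k => by
    show ((2 * a : ℤ) : ZMod (2 * 8)) + (((2 * (-a) : ℤ) : ZMod (2 * 8)) + k) = k
    push_cast
    ring

theorem Re.inv {w : G} {a : ℤ} (h : Re S w a) : Re S w⁻¹ a := Maps.inv h fun k => sub_sub_cancel _ k

theorem Ro.cong {w : G} {a b : ℤ} (h : Ro S w a) (e : ((2 * a : ℤ) : ZMod (2 * 8)) = ((2 * b : ℤ) : ZMod (2 * 8))) :
    Ro S w b := by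
  show Maps S.R.X w _
  rw [← e]
  exact h

theorem Re.cong {w : G} {a b : ℤ} (h : Re S w a) (e : ((2 * a : ℤ) : ZMod (2 * 8)) = ((2 * b : ℤ) : ZMod (2 * 8))) :
    Re S w b := by
  show Maps S.R.X w _
  rw [← e]
  exact h

theorem Ro.red {w : G} {a : ℤ} (h : Ro S w a) (lo : ℤ) : ∃ c, lo ≤ c ∧ c < lo + 8 ∧ Ro S w c := by
  obtain ⟨c, h1, h2, h3⟩ := reduce a lo
  exact ⟨c, h1, h2, h.cong h3⟩

theorem Re.red {w : G} {a : ℤ} (h : Re S w a) (lo : ℤ) : ∃ c, lo ≤ c ∧ c < lo + 8 ∧ Re S w c := by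
  obtain ⟨c, h1, h2, h3⟩ := reduce a lo
  exact ⟨c, h1, h2, h.cong h3⟩

theorem Ro.zero_iff {w : G} : Ro S w 0 ↔ w ∈ S.T := by
  constructor
  · intro h
    exact Maps.congr h fun k => by simp
  · intro h
    exact Maps.congr h fun k => by simp

/-- conjugation on arcs -/
theorem Ro.arc {w : G} {c : ℤ} (h : Ro S w c) {a b a' b' : ℤ} (ha : a' ≤ a - 2 * c) (hb : b - 2 * c ≤ b') {x : G}
    (hx : x ∈ J S.XZ a b) : w⁻¹ * x * w ∈ J S.XZ a' b' := by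
  have h1 := S.map_add h.inv hx
  rw [inv_inv] at h1
  exact J_mono (by omega) (by omega) h1

theorem Re.arc {w : G} {c : ℤ} (h : Re S w c) {a b a' b' : ℤ} (ha : a' ≤ 2 * c - b) (hb : 2 * c - a ≤ b') {x : G}
    (hx : x ∈ J S.XZ a b) : w⁻¹ * x * w ∈ J S.XZ a' b' := by
  have h1 := S.map_sub h.inv hx
  rw [inv_inv] at h1
  exact J_mono (by omega) (by omega) h1

theorem Ro.arc' {w : G} {c : ℤ} (h : Ro S w c) {a b a' b' : ℤ} (ha : a' ≤ 2 * c + a) (hb : 2 * c + b ≤ b') {x : G}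
    (hx : x ∈ J S.XZ a b) : w * x * w⁻¹ ∈ J S.XZ a' b' := J_mono (by omega) (by omega) (S.map_add h hx)

theorem Re.arc' {w : G} {c : ℤ} (h : Re S w c) {a b a' b' : ℤ} (ha : a' ≤ 2 * c - b) (hb : 2 * c - a ≤ b') {x : G}
    (hx : x ∈ J S.XZ a b) : w * x * w⁻¹ ∈ J S.XZ a' b' := J_mono (by omega) (by omega) (S.map_sub h hx)

/-- conjugation on the torus -/
theorem Ro.tor {w : G} {c : ℤ} (h : Ro S w c) {t : G} (ht : t ∈ S.T) : w⁻¹ * t * w ∈ S.T := by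
  rw [← Ro.zero_iff] at ht ⊢
  exact ((h.inv.mul ht).mul h).cong (by push_cast; ring)

theorem Re.tor {w : G} {c : ℤ} (h : Re S w c) {t : G} (ht : t ∈ S.T) : w⁻¹ * t * w ∈ S.T := by
  rw [← Ro.zero_iff] at ht ⊢
  exact ((h.inv.mulRo ht).mul h).cong (by push_cast; ring)

/-- the elements of the dihedral group -/
def Dih (S : Full σ G) (w : G) : Prop := ∃ c, Ro S w c ∨ Re S w c

theorem Dih.tor {w : G} (h : Dih S w) {t : G} (ht : t ∈ S.T) : w⁻¹ * t * w ∈ S.T := by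
  obtain ⟨c, h | h⟩ := h
  · exact h.tor ht
  · exact h.tor ht

variable (S)

theorem re1 : Re S S.n1 5 := S.n1_maps.congr fun k => by push_cast; ring
theorem re2 : Re S S.n2 4 := S.n2_maps.congr fun k => by push_cast; ring

variable {S}

theorem Dih.mul1 {w : G} (h : Dih S w) : Dih S (S.n1 * w) := by
  obtain ⟨c, h | h⟩ := h
  · exact ⟨_, Or.inr ((re1 S).mulRo h)⟩
  · exact ⟨_, Or.inl ((re1 S).mul h)⟩

theorem Dih.mul2 {w : G} (h : Dih S w) : Dih S (S.n2 * w) := by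
  obtain ⟨c, h | h⟩ := h
  · exact ⟨_, Or.inr ((re2 S).mulRo h)⟩
  · exact ⟨_, Or.inl ((re2 S).mul h)⟩

/-- `w⁻¹ X_1 w ≤ U` or the same for `n1 w` -/
theorem Dih.one {w : G} (h : Dih S w) : (∀ x ∈ S.XZ 1, w⁻¹ * x * w ∈ J S.XZ 1 8) ∨
    ∀ x ∈ S.XZ 1, (S.n1 * w)⁻¹ * x * (S.n1 * w) ∈ J S.XZ 1 8 := by
  obtain ⟨c, h | h⟩ := h
  · obtain ⟨c, h1, h2, h⟩ := h.red (-7)
    by_cases h3 : -3 ≤ c
    · exact Or.inl fun x hx => h.arc (by omega) (by omega) (mem_J hx le_rfl le_rfl)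
    · exact Or.inr fun x hx => (((re1 S).mulRo h).cong (b := 5 - c - 8) (by
        rw [ZMod.intCast_eq_intCast_iff_dvd_sub]
        exact ⟨-1, by push_cast; ring⟩)).arc (by omega) (by omega) (mem_J hx le_rfl le_rfl)
  · obtain ⟨c, h1, h2, h⟩ := h.red 1
    by_cases h3 : c ≤ 4
    · exact Or.inl fun x hx => h.arc (by omega) (by omega) (mem_J hx le_rfl le_rfl)
    · exact Or.inr fun x hx => ((re1 S).mul h).arc (by omega) (by omega) (mem_J hx le_rfl le_rfl)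

/-- `w⁻¹ X_8 w ≤ U` or the same for `n2 w` -/
theorem Dih.eight {w : G} (h : Dih S w) : (∀ x ∈ S.XZ 8, w⁻¹ * x * w ∈ J S.XZ 1 8) ∨
    ∀ x ∈ S.XZ 8, (S.n2 * w)⁻¹ * x * (S.n2 * w) ∈ J S.XZ 1 8 := by
  obtain ⟨c, h | h⟩ := h
  · obtain ⟨c, h1, h2, h⟩ := h.red (-4)
    by_cases h3 : 0 ≤ c
    · exact Or.inl fun x hx => h.arc (by omega) (by omega) (mem_J hx le_rfl le_rfl)
    · exact Or.inr fun x hx => ((re2 S).mulRo h).arc (by omega) (by omega) (mem_J hx le_rfl le_rfl)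
  · obtain ⟨c, h1, h2, h⟩ := h.red 5
    by_cases h3 : c ≤ 8
    · exact Or.inl fun x hx => h.arc (by omega) (by omega) (mem_J hx le_rfl le_rfl)
    · exact Or.inr fun x hx => (((re2 S).mul h).cong (b := 4 - c + 8) (by
        rw [ZMod.intCast_eq_intCast_iff_dvd_sub]
        exact ⟨1, by push_cast; ring⟩)).arc (by omega) (by omega) (mem_J hx le_rfl le_rfl)

/-- `w X_8 w⁻¹ ≤ J 2 8` or the same for `w n2` -/
theorem Dih.eight' {w : G} (h : Dih S w) : (∀ x ∈ S.XZ 8, w * x * w⁻¹ ∈ J S.XZ 2 8) ∨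
    ∀ x ∈ S.XZ 8, (w * S.n2) * x * (w * S.n2)⁻¹ ∈ J S.XZ 2 8 := by
  obtain ⟨c, h | h⟩ := h
  · obtain ⟨c, h1, h2, h⟩ := h.red (-3)
    by_cases h3 : c ≤ 0
    · exact Or.inl fun x hx => h.arc' (by omega) (by omega) (mem_J hx le_rfl le_rfl)
    · exact Or.inr fun x hx => (h.mulRe (re2 S)).arc' (by omega) (by omega) (mem_J hx le_rfl le_rfl)
  · obtain ⟨c, h1, h2, h⟩ := h.red 1
    by_cases h3 : 5 ≤ c
    · exact Or.inl fun x hx => h.arc' (by omega) (by omega) (mem_J hx le_rfl le_rfl)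
    · exact Or.inr fun x hx => (h.mul (re2 S)).arc' (by omega) (by omega) (mem_J hx le_rfl le_rfl)

/-! ### the frames -/

variable [Finite F]

theorem bruhat' (g : G) : ∃ b ∈ BB S, ∃ w, Dih S w ∧ ∃ b' ∈ BB S, g = b * w * b' := by
  obtain ⟨b, hb, t, ht, w, hw, b', hb', rfl⟩ := S.bruhatE g
  exact ⟨b * t, mul_mem (J_le_BB S hb) (T_le_BB S ht), w, hw, b', J_le_BB S hb', rfl⟩

theorem BB_form {b : G} (hb : b ∈ BB S) : ∃ t ∈ S.T, ∃ u ∈ J S.XZ 1 8, b = t * u :=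
  mem_sup_of_norm (fun _ ht _ hu => S.T_conj_J ht hu) hb

theorem BB_le_PB : BB S ≤ PB S := sup_le (T_le_PB S) ((J_mono (by norm_num) le_rfl).trans (J_le_PB S))

theorem T_LO {t l : G} (ht : t ∈ S.T) (hl : l ∈ S.LO) : t * l * t⁻¹ ∈ S.LO := by
  have : S.LO ≤ (S.LO).comap (MulAut.conj t).toMonoidHom :=
    sup_le (fun x hx => Subgroup.mem_sup_left (S.T_conj ht 1 hx)) fun x hx => Subgroup.mem_sup_right (S.T_conj ht 9 hx)
  exact this hl

theorem T_L4 {t l : G} (ht : t ∈ S.T) (hl : l ∈ L4 S) : t * l * t⁻¹ ∈ L4 S := by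
  have : L4 S ≤ (L4 S).comap (MulAut.conj t).toMonoidHom :=
    sup_le (fun x hx => Subgroup.mem_sup_left (S.T_conj ht 0 hx)) fun x hx => Subgroup.mem_sup_right (S.T_conj ht 8 hx)
  exact this hl

variable (S)

/-- the frame of `PP` -/
theorem frP : Fr (BB S) (PP S) (J S.XZ 2 8) (S.T ⊔ S.LO) (S.T ⊔ S.XZ 1) S.n1 (Dih S) := by
  have Z := S.zsys8
  have hX1 : S.XZ 1 ≤ S.LO := le_sup_left
  have hbru : ∀ g ∈ S.T ⊔ S.LO, g ∈ S.T ⊔ S.XZ 1 ∨ ∃ a ∈ S.T ⊔ S.XZ 1, ∃ b ∈ S.T ⊔ S.XZ 1, g = a * S.n1 * b := by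
    intro g hg
    obtain ⟨t, ht, l, hl, rfl⟩ := mem_sup_of_norm (A := S.T) (B := S.LO) (fun t ht l hl => T_LO ht hl) hg
    have hBM : BM S ≤ S.T ⊔ S.XZ 1 := sup_le_sup_right (TM_le_T S) _
    rcases LO_bruhat S hl with h | ⟨x, hx, b, hb, rfl⟩
    · exact Or.inl (mul_mem (Subgroup.mem_sup_left ht) (hBM h))
    · exact Or.inr ⟨t * x, mul_mem (Subgroup.mem_sup_left ht) (Subgroup.mem_sup_right hx), b, hBM hb, by group⟩
  refine
    { LP := LO_le S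
      RP := (J_mono (by norm_num) (by norm_num)).trans (J_le_PP S)
      CL := sup_le_sup_left hX1 _
      CB := sup_le (T_le_BB S) ((X_le_J le_rfl (by norm_num)).trans (J_le_BB S))
      RB := (J_mono (by norm_num) le_rfl).trans (J_le_BB S)
      BP := BB_le_PP S
      form := ?_
      formB := ?_
      norm := fun g hg r hr => PP_norm S hg hr
      nL := Subgroup.mem_sup_right S.n1_mem_LO
      bru := hbru
      cov := ?_ }
  · intro g hg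
    obtain ⟨l, hl, n, hn, rfl⟩ := PP_form S hg
    obtain ⟨z, hz, y, hy, rfl⟩ := N1_form S hn
    exact ⟨l * z, mul_mem (Subgroup.mem_sup_right hl) (Subgroup.mem_sup_left (ZJ_le_T S hz)), y, hy, by rw [mul_assoc]⟩
  · intro g hg
    obtain ⟨t, ht, u, hu, rfl⟩ := BB_form hg
    obtain ⟨x, hx, r, hr, rfl⟩ := Z.split_ll (by norm_num) (by norm_num) hu
    exact ⟨t * x, mul_mem (Subgroup.mem_sup_left ht) (Subgroup.mem_sup_right hx), r, hr, by rw [mul_assoc]⟩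
  · intro g
    obtain ⟨b, hb, w, hw, b', hb', rfl⟩ := bruhat' (S := S) g
    have key : ∀ w : G, Dih S w → (∀ x ∈ S.XZ 1, w⁻¹ * x * w ∈ J S.XZ 1 8) →
        ∀ c ∈ S.T ⊔ S.XZ 1, w⁻¹ * c * w ∈ BB S := by
      intro w hw h
      have : S.T ⊔ S.XZ 1 ≤ (BB S).comap (MulAut.conj w⁻¹).toMonoidHom := by
        refine sup_le (fun t ht => ?_) fun x hx => ?_
        · show w⁻¹ * t * w⁻¹⁻¹ ∈ BB S
          rw [inv_inv]
          exact T_le_BB S (hw.tor ht)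
        · show w⁻¹ * x * w⁻¹⁻¹ ∈ BB S
          rw [inv_inv]
          exact J_le_BB S (h x hx)
      intro c hc
      have h1 : w⁻¹ * c * w⁻¹⁻¹ ∈ BB S := this hc
      rwa [inv_inv] at h1
    rcases hw.one with h | h
    · exact ⟨b, BB_le_PP S hb, b', hb', w, hw, rfl, key w hw h⟩
    · exact ⟨b * S.n1⁻¹, mul_mem (BB_le_PP S hb) (inv_mem (n1_mem_PP S)), b', hb', S.n1 * w, hw.mul1, by group,
        key _ hw.mul1 h⟩

/-- the frame of `PB` -/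
theorem frB (hF : ∃ c : Fˣ, c ≠ 1) :
    Fr (BB S) (PB S) (J S.XZ 1 7) (S.T ⊔ L4 S) (S.T ⊔ S.XZ 8) S.n2 (Dih S) := by
  have Z := S.zsys8
  have hX1 : S.XZ 8 ≤ L4 S := le_sup_right
  have hbru : ∀ g ∈ S.T ⊔ L4 S, g ∈ S.T ⊔ S.XZ 8 ∨ ∃ a ∈ S.T ⊔ S.XZ 8, ∃ b ∈ S.T ⊔ S.XZ 8, g = a * S.n2 * b := by
    intro g hg
    obtain ⟨t, ht, l, hl, rfl⟩ := mem_sup_of_norm (A := S.T) (B := L4 S) (fun t ht l hl => T_L4 ht hl) hg
    have hBM : Cfsg.Agent.H42.Deg.F4B.BE S ≤ S.T ⊔ S.XZ 8 := sup_le_sup_right (Cfsg.Agent.H42.Deg.F4B.TE_le_T S) _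
    rcases Cfsg.Agent.H42.Deg.F4B.L4_bruhat S hF hl with h | ⟨x, hx, b, hb, rfl⟩
    · exact Or.inl (mul_mem (Subgroup.mem_sup_left ht) (hBM h))
    · exact Or.inr ⟨t * x, mul_mem (Subgroup.mem_sup_left ht) (Subgroup.mem_sup_right hx), b, hBM hb, by group⟩
  refine
    { LP := L4_le S
      RP := (J_mono (by norm_num) (by norm_num)).trans (J_le_PB S)
      CL := sup_le_sup_left hX1 _
      CB := sup_le (T_le_BB S) ((X_le_J (by norm_num) le_rfl).trans (J_le_BB S))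
      RB := (J_mono le_rfl (by norm_num)).trans (J_le_BB S)
      BP := BB_le_PB
      form := ?_
      formB := ?_
      norm := fun g hg r hr => PB_norm S hg hr
      nL := Subgroup.mem_sup_right (n2_mem_L4 S)
      bru := hbru
      cov := ?_ }
  · intro g hg
    obtain ⟨l, hl, n, hn, rfl⟩ := PB_form S hg
    obtain ⟨z, hz, y, hy, rfl⟩ := NB_form S hn
    exact ⟨l * z, mul_mem (Subgroup.mem_sup_right hl) (Subgroup.mem_sup_left (Cfsg.Agent.H42.Deg.F4B.ZE_le_T S hz)), y,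
      hy, by rw [mul_assoc]⟩
  · intro g hg
    obtain ⟨t, ht, u, hu, rfl⟩ := BB_form hg
    obtain ⟨x, hx, r, hr, rfl⟩ := Z.split_rl (by norm_num) (by norm_num) hu
    exact ⟨t * x, mul_mem (Subgroup.mem_sup_left ht) (Subgroup.mem_sup_right hx), r, hr, by rw [mul_assoc]⟩
  · intro g
    obtain ⟨b, hb, w, hw, b', hb', rfl⟩ := bruhat' (S := S) g
    have key : ∀ w : G, Dih S w → (∀ x ∈ S.XZ 8, w⁻¹ * x * w ∈ J S.XZ 1 8) →
        ∀ c ∈ S.T ⊔ S.XZ 8, w⁻¹ * c * w ∈ BB S := by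
      intro w hw h
      have : S.T ⊔ S.XZ 8 ≤ (BB S).comap (MulAut.conj w⁻¹).toMonoidHom := by
        refine sup_le (fun t ht => ?_) fun x hx => ?_
        · show w⁻¹ * t * w⁻¹⁻¹ ∈ BB S
          rw [inv_inv]
          exact T_le_BB S (hw.tor ht)
        · show w⁻¹ * x * w⁻¹⁻¹ ∈ BB S
          rw [inv_inv]
          exact J_le_BB S (h x hx)
      intro c hc
      have h1 : w⁻¹ * c * w⁻¹⁻¹ ∈ BB S := this hc
      rwa [inv_inv] at h1
    rcases hw.eight with h | h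
    · exact ⟨b, BB_le_PB hb, b', hb', w, hw, rfl, key w hw h⟩
    · exact ⟨b * S.n2⁻¹, mul_mem (BB_le_PB hb) (inv_mem (Cfsg.Agent.H42.Deg.F4B.n2_mem_PB S)), b', hb', S.n2 * w,
        hw.mul2, by group, key _ hw.mul2 h⟩

/-- fixed vectors of both unipotent radicals -/
theorem sum_J_ne [Fintype G] [Fintype (J S.XZ 2 8)] [Fintype (J S.XZ 1 7)] [Fintype (J S.XZ 1 8)] {χ : G → ℂ}
    (hχ : IsIrrCharacter G χ) (h : ∑ r : J S.XZ 2 8, χ r ≠ 0) (h' : ∑ r : J S.XZ 1 7, χ r ≠ 0) :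
    ∑ u : J S.XZ 1 8, χ u ≠ 0 := by
  have Z := S.zsys8
  refine sum_U_ne (P := PP S) (Q := PB S) (X := S.XZ 8) ((J_mono (by norm_num) (by norm_num)).trans (J_le_PP S))
    ((J_mono (by norm_num) (by norm_num)).trans (J_le_PB S)) ((J_mono (by norm_num) (by norm_num)).trans (J_le_PB S))
    (X_le_J (by norm_num) le_rfl) (fun g hg r hr => PP_norm S hg hr) (fun g hg r hr => PB_norm S hg hr)
    (fun g hg => Z.split_rl (by norm_num) (by norm_num) hg) (fun g => ?_) hχ h h'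
  obtain ⟨b, hb, w, hw, b', hb', rfl⟩ := bruhat' (S := S) g
  rcases hw.eight' with h | h
  · exact ⟨b, BB_le_PP S hb, b', BB_le_PB hb', w, rfl, h⟩
  · exact ⟨b, BB_le_PP S hb, S.n2⁻¹ * b', mul_mem (inv_mem (Cfsg.Agent.H42.Deg.F4B.n2_mem_PB S)) (BB_le_PB hb'),
      w * S.n2, by group, h⟩

end Cfsg.Agent.H654.OZ
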